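import Cfsg.Agent.BlkChar.BlockAlgebra
import Mathlib.LinearAlgebra.Matrix.Rank

/-!
# The dimension of the centre of a block algebra

Central elements are class functions, and multiplication by a central element acts on them by the
transpose of its action on class sums of coefficients; so the centre of a block algebra has the
number of characters of the block as dimension.
-/

set_option autoImplicit false
set_option linter.style.haveILetI false

namespace Cfsg.Agent.BlkDeg

open Cfsg Cfsg.Agent.Block Cfsg.Agent.BlkChar.BlockAlg
open MonoidAlgebra (single coeff_add coeff_smul)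
open scoped Classical

universe u

variable {G : Type u} [Group G] [Fintype G]

attribute [local instance] BlkChar.BlockAlg.conjClassesFintype

section Field

variable {k : Type*} [Field k]

/-- The central element with given values on the classes of inverses. -/
noncomputable def classElt : (ConjClasses G → k) →ₗ[k] MonoidAlgebra k G where
  toFun φ := ofFn fun g => φ (ConjClasses.mk g⁻¹)
  map_add' φ ψ := groupAlgebra_ext fun g => by simp [coeff_add]
  map_smul' c φ := groupAlgebra_ext fun g => by simp [coeff_smul]

theorem coeff_classElt (φ : ConjClasses G → k) (g : G) :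
    (classElt φ).coeff g = φ (ConjClasses.mk g⁻¹) := by simp [classElt]

theorem classElt_injective : Function.Injective (classElt : (ConjClasses G → k) → _) := by
  intro φ ψ h
  funext c
  obtain ⟨g, rfl⟩ := ConjClasses.mk_surjective c
  simpa [coeff_classElt] using congrArg (fun a : MonoidAlgebra k G => a.coeff g⁻¹) h

theorem exists_classElt_eq {z : MonoidAlgebra k G} (hz : IsCentralElt z) :
    ∃ φ, classElt φ = z := by
  refine ⟨fun c => z.coeff (Quotient.out c)⁻¹, groupAlgebra_ext fun g => ?_⟩
  rw [coeff_classElt]
  obtain ⟨t, ht⟩ := isConj_iff.1 (ConjClasses.mk_eq_mk_iff_isConj.1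
    (Quotient.out_eq (ConjClasses.mk g⁻¹) : ConjClasses.mk _ = ConjClasses.mk g⁻¹))
  rw [← hz _ t]
  congr 1
  generalize Quotient.out (ConjClasses.mk g⁻¹) = o at ht ⊢
  have h := congrArg (·⁻¹) ht
  simpa [mul_assoc] using h

theorem mul_classElt {b : MonoidAlgebra k G} (hb : IsCentralElt b) (φ : ConjClasses G → k) :
    b * classElt φ = classElt ((classMat b).transpose.mulVec φ) := by
  refine groupAlgebra_ext fun g => ?_
  rw [coeff_classElt, coeff_mul_sum' b]
  have hindep : ∀ (y : G) (c : ConjClasses G),
      (∑ x : G, if ConjClasses.mk x = c then b.coeff (x * y⁻¹) else 0) =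
        classMat b c (ConjClasses.mk y) := by
    intro y c
    have h := congrFun (classProj_mul hb (single y (1 : k))) c
    rw [classProj_single] at h
    simp only [classProj, coeff_mul_sum' b] at h
    simpa [Matrix.mulVec_single, Finsupp.single_apply] using h
  simp only [Matrix.mulVec, dotProduct, Matrix.transpose_apply, coeff_classElt,
    ← hindep g⁻¹, inv_inv]
  simp only [Finset.sum_mul, ite_mul, zero_mul]
  rw [Finset.sum_comm (γ := ConjClasses G)]
  simp only [Finset.sum_ite_eq, Finset.mem_univ, if_true]
  refine Fintype.sum_equiv (Equiv.inv G) _ _ fun x => ?_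
  simp only [Equiv.inv_apply, inv_inv]
  congr 1
  rw [← hb (g * x⁻¹) x⁻¹]
  congr 1
  group

/-- The central elements of the algebra cut out by `b`. -/
noncomputable def centrePart (b : MonoidAlgebra k G) : Submodule k (MonoidAlgebra k G) :=
  (LinearMap.range (classMat b).transpose.mulVecLin).map classElt

theorem mem_centrePart {b : MonoidAlgebra k G} (hb : IsCentralElt b) (hbb : b * b = b)
    {z : MonoidAlgebra k G} : z ∈ centrePart b ↔ IsCentralElt z ∧ b * z = z := by
  constructor
  · rintro ⟨_, ⟨φ, rfl⟩, rfl⟩
    refine ⟨fun g h => ?_, ?_⟩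
    · simp only [coeff_classElt]
      exact congrArg _ (ConjClasses.mk_eq_mk_iff_isConj.2 (isConj_iff.2
        ⟨h, show h * g⁻¹ * h⁻¹ = (h * g * h⁻¹)⁻¹ by group⟩).symm)
    · rw [Matrix.mulVecLin_apply, ← mul_classElt hb, ← mul_assoc, hbb]
  · rintro ⟨hz, hbz⟩
    obtain ⟨φ, rfl⟩ := exists_classElt_eq hz
    exact ⟨_, ⟨φ, rfl⟩, by rw [Matrix.mulVecLin_apply, ← mul_classElt hb, hbz]⟩

theorem finrank_centrePart (b : MonoidAlgebra k G) :
    Module.finrank k (centrePart b) =
      Module.finrank k (LinearMap.range (classMat b).mulVecLin) := by
  rw [centrePart, ← (Submodule.equivMapOfInjective classElt classElt_injective _).finrank_eq]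
  exact Matrix.rank_transpose (classMat b)

end Field

variable {M : Ideal AlgInt} [M.IsPrime] {B : Set (IrrCharacter G)}

/-- The centre of a block algebra has the dimension of the number of characters. -/
theorem finrank_centrePart_idemF (hB : IsPBlock M B) :
    Module.finrank (ResF M) (centrePart (idemF M B)) = Nat.card B := by
  have h := finrank_range_classMat (M := M) hB
  rw [finrank_centrePart]
  exact_mod_cast h

end Cfsg.Agent.BlkDeg
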