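import Cfsg.Agent.BlkDeg.CentreDim
import Cfsg.Agent.BrauerPairs.AbelianLocal
import Cfsg.Agent.BrauerPairs.Nil.Main
import Cfsg.Agent.BrauerPairs.RegSupport

/-!
# The block of the centralizer of an abelian defect group

It is nilpotent with central defect group, so the centre of its algebra is spanned by the translates
of its idempotent by the defect group.
-/

set_option autoImplicit false
set_option linter.style.haveILetI false
set_option linter.unusedSectionVars false
set_option maxHeartbeats 1000000

namespace Cfsg.Agent.BlkDeg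

open Cfsg Cfsg.Agent.Block Cfsg.Agent.BrauerPairs
open MonoidAlgebra (single)
open scoped Classical

universe u

variable {p : ℕ} [Fact p.Prime] {M : Ideal AlgInt} [M.IsPrime] [CharP (ResF M) p]
  {G : Type u} [Group G] [Fintype G] {B : Set (IrrCharacter G)} {P : Subgroup G}
  {e : Blk M (Subgroup.centralizer (P : Set G))}

theorem nsub_self (hP : IsPGroup p P) (e : Blk M (Subgroup.centralizer (P : Set G))) :
    NSub (pairSys M G) p (⟨P, e⟩ : PairIdx M G) ⟨P, e⟩ :=
  ⟨hP, le_rfl, Subgroup.le_normalizer,
    BrauerPairs.fixed_self_of_suppIn ((pairSys M G P).central_idem e).supp, by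
      rw [trunc_eq_self_iff.2 ((pairSys M G P).central_idem e).supp]
      exact (pairSys M G P).lam_idem_self e⟩

/-- The block at the top has as many characters as the defect group has elements. -/
theorem card_top_block (hM : IsPModular p M) (hm : IsMaximalBrauerPair p M B P e.1)
    (hab : ∀ x ∈ P, ∀ y ∈ P, x * y = y * x) : Nat.card e.1 = Nat.card P := by
  have hP : IsPGroup p P := hm.1.1.1
  have hnil : IsNilpotentBlock p M e.1 :=
    (isNilpotentBlock_local_iff hm hab (nsub_self hP e)).2 inf_le_right
  obtain ⟨x, b, hb, hle, hD⟩ :=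
    exists_conj_centralizer_defect hm (a := ⟨P, e⟩) Relation.ReflTransGen.refl
  obtain rfl : b = ⟨P, e⟩ := hle.eq_of_le (Subgroup.eq_of_le_of_card_ge hle.le hb.card_eq.ge).ge
  letI := Fintype.ofFinite (Subgroup.centralizer (P : Set G))
  set Q := (P ⊓ Subgroup.centralizer (P : Set G)).subgroupOf
    (Subgroup.centralizer (P : Set G)) with hQ
  obtain ⟨Φ, -⟩ := Nil.exists_equiv_heights hM hnil hD
  have hPC : P ⊓ Subgroup.centralizer (P : Set G) = P :=
    inf_of_le_left (le_centralizer_of_abelian hab le_rfl)
  letI : CommGroup Q :=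
    { (inferInstance : Group Q) with
      mul_comm := fun a b => Subtype.ext (Subtype.ext
        (hab _ (Subgroup.mem_inf.1 (Subgroup.mem_subgroupOf.1 a.2)).1 _
          (Subgroup.mem_inf.1 (Subgroup.mem_subgroupOf.1 b.2)).1)) }
  rw [Nat.card_congr Φ, Char.card_irr_eq_card_conjClasses, ← Nat.card_congr ConjClasses.mkEquiv,
    Nat.card_congr (Subgroup.subgroupOfEquivOfLe inf_le_right).toEquiv, hPC]

variable (e) in
/-- Combinations of the translates of the idempotent of `e` by `P`. -/
noncomputable def translate : (P → ResF M) →ₗ[ResF M] MonoidAlgebra (ResF M) G where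
  toFun c := ∑ u : P, c u • (single (u : G) (1 : ResF M) * (pairSys M G P).idem e)
  map_add' c c' := by simp only [Pi.add_apply, add_smul, Finset.sum_add_distrib]
  map_smul' r c := by
    simp only [Pi.smul_apply, smul_eq_mul, RingHom.id_apply, Finset.smul_sum, smul_smul]

theorem translate_apply (c : P → ResF M) :
    translate e c = ∑ u : P, c u • (single (u : G) (1 : ResF M) * (pairSys M G P).idem e) := rfl

theorem exists_regular_idem (hM : IsPModular p M) (e : Blk M (Subgroup.centralizer (P : Set G))) :
    ∃ y ∈ Subgroup.centralizer (P : Set G), ¬ p ∣ orderOf y ∧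
      ((pairSys M G P).idem e).coeff y ≠ 0 := by
  obtain ⟨y, hy⟩ : ∃ y, ((pairSys M G P).idem e).coeff y ≠ 0 := by
    by_contra! h
    exact (pairSys M G P).idem_ne_zero e (groupAlgebra_ext fun g => by simp [h g])
  refine ⟨y, not_not.1 fun h => hy (((pairSys M G P).central_idem e).supp y h), fun h => hy ?_, hy⟩
  show ((blockSys M _).idem e).coeff y = 0
  rw [coeff_blockSys_idem, subgroupBlockCoeff_eq_zero_of_singular hM e h, redC_zero]

theorem coeff_idem_eq_zero (hM : IsPModular p M) (e : Blk M (Subgroup.centralizer (P : Set G)))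
    {y : G} (h : p ∣ orderOf y) : ((pairSys M G P).idem e).coeff y = 0 := by
  show ((blockSys M _).idem e).coeff y = 0
  rw [coeff_blockSys_idem, subgroupBlockCoeff_eq_zero_of_singular hM e h, redC_zero]

theorem translate_injective (hM : IsPModular p M) (hP : IsPGroup p P) :
    Function.Injective (translate (M := M) e) := by
  rw [injective_iff_map_eq_zero]
  intro c hc
  obtain ⟨y, hyC, hy, hne⟩ := exists_regular_idem hM e
  funext u
  have h := congrArg (fun a : MonoidAlgebra (ResF M) G => a.coeff ((u : G) * y)) hc
  simp only [translate_apply, MonoidAlgebra.coeff_sum, Finsupp.finsetSum_apply,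
    MonoidAlgebra.coeff_zero, Finsupp.zero_apply] at h
  have hterm : ∀ v : P, (c v • (single (v : G) (1 : ResF M) * (pairSys M G P).idem e)).coeff
      ((u : G) * y) = if v = u then c u * ((pairSys M G P).idem e).coeff y else 0 := by
    intro v
    rw [MonoidAlgebra.coeff_smul, Finsupp.smul_apply, smul_eq_mul, Block.coeff_mul_sum,
      Finset.sum_eq_single (v : G) (fun z _ hz => by simp [Finsupp.single_apply, Ne.symm hz])
        (by simp)]
    simp only [MonoidAlgebra.coeff_single, Finsupp.single_eq_same, one_mul, ← mul_assoc]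
    split_ifs with hvu
    · subst hvu; simp
    · rw [coeff_idem_eq_zero hM e ?_, mul_zero]
      set w : P := v⁻¹ * u with hw
      have hw1 : (w : G) ≠ 1 := fun h1 => hvu (by
        have : w = 1 := Subtype.ext h1
        rw [hw, inv_mul_eq_one] at this
        exact this)
      obtain ⟨i, hi⟩ := (IsPGroup.iff_orderOf.1 hP) w
      rw [← Subgroup.orderOf_coe] at hi
      have hi0 : i ≠ 0 := by
        rintro rfl
        exact hw1 (orderOf_eq_one_iff.1 (by simpa using hi))
      rw [show (v : G)⁻¹ * (u : G) * y = (w : G) * y by simp [hw, mul_assoc]]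
      have hcom : Commute (w : G) y := Subgroup.mem_centralizer_iff.1 hyC _ w.2
      rw [hcom.orderOf_mul_eq_mul_orderOf_of_coprime (by
        rw [hi]
        exact ((Fact.out : p.Prime).coprime_iff_not_dvd.2 hy).pow_left i), hi]
      exact (dvd_pow_self p hi0).mul_right _
  simp only [hterm, Finset.sum_ite_eq', Finset.mem_univ, if_true, mul_eq_zero] at h
  exact h.resolve_right hne

theorem incl_smul {C : Subgroup G} (r : ResF M) (a : MonoidAlgebra (ResF M) C) :
    incl C (r • a) = r • incl C a :=
  groupAlgebra_ext fun g => by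
    by_cases hg : g ∈ C
    · simp [MonoidAlgebra.coeff_smul, coeff_incl_coe C _ ⟨g, hg⟩]
    · simp [MonoidAlgebra.coeff_smul, coeff_incl_of_notMem C _ hg]

/-- A central element of the centralizer cut out by `e` is a combination of translates. -/
theorem exists_translate_eq (hM : IsPModular p M) (hm : IsMaximalBrauerPair p M B P e.1)
    (hab : ∀ x ∈ P, ∀ y ∈ P, x * y = y * x) {w : MonoidAlgebra (ResF M) G}
    (hw : CentralIn (Subgroup.centralizer (P : Set G)) w)
    (hwe : (pairSys M G P).idem e * w = w) : ∃ c, translate e c = w := by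
  have hP : IsPGroup p P := hm.1.1.1
  letI := Fintype.ofFinite (Subgroup.centralizer (P : Set G))
  have hPC : P ≤ (Subgroup.centralizer (P : Set G)) := le_centralizer_of_abelian hab le_rfl
  let ψ : (P → ResF M) →ₗ[ResF M] MonoidAlgebra (ResF M) (Subgroup.centralizer (P : Set G)) :=
    { toFun := fun c => ∑ u : P, c u • (single (⟨(u : G), hPC u.2⟩ : (Subgroup.centralizer (P : Set G))) (1 : ResF M) * idemF M e.1)
      map_add' := fun c c' => by simp only [Pi.add_apply, add_smul, Finset.sum_add_distrib]
      map_smul' := fun r c => by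
        simp only [Pi.smul_apply, smul_eq_mul, RingHom.id_apply, Finset.smul_sum, smul_smul] }
  have hψ : ∀ c, incl (Subgroup.centralizer (P : Set G)) (ψ c) = translate e c := by
    intro c
    show incl (Subgroup.centralizer (P : Set G)) (∑ u : P, c u • (single (⟨(u : G), hPC u.2⟩ : (Subgroup.centralizer (P : Set G))) (1 : ResF M) * idemF M e.1)) = _
    rw [map_sum, translate_apply]
    refine Finset.sum_congr rfl fun u _ => ?_
    rw [incl_smul, map_mul]
    congr 2
    simp only [incl, MonoidAlgebra.mapDomainRingHom_apply, MonoidAlgebra.mapDomain_single]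
    rfl
  have hψinj : Function.Injective ψ := fun c c' h =>
    translate_injective hM hP (by rw [← hψ, ← hψ, h])
  have hec : IsCentralElt (idemF M e.1) := idemF_isCentralElt e.1
  have hee : idemF M e.1 * idemF M e.1 = idemF M e.1 := idemF_mul_self e.2
  have hrange : LinearMap.range ψ = centrePart (idemF M e.1) := by
    haveI : FiniteDimensional (ResF M) (MonoidAlgebra (ResF M) (Subgroup.centralizer (P : Set G))) :=
      Module.Finite.of_basis (MonoidAlgebra.basis (Subgroup.centralizer (P : Set G)) (ResF M))
    refine Submodule.eq_of_le_of_finrank_eq ?_ ?_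
    · rintro _ ⟨c, rfl⟩
      refine Submodule.sum_mem _ fun u _ => Submodule.smul_mem _ _ ?_
      rw [mem_centrePart hec hee]
      have hu : ∀ g : (Subgroup.centralizer (P : Set G)), Commute (⟨(u : G), hPC u.2⟩ : (Subgroup.centralizer (P : Set G))) g := fun g =>
        Subtype.ext (Subgroup.mem_centralizer_iff.1 g.2 _ u.2)
      refine ⟨isCentralElt_of_commute fun g => ?_, ?_⟩
      · rw [mul_assoc, isCentralElt_commute hec, ← mul_assoc, ← mul_assoc,
          MonoidAlgebra.single_mul_single, MonoidAlgebra.single_mul_single, (hu g).eq]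
      · rw [← mul_assoc, isCentralElt_commute hec, mul_assoc, hee]
    · rw [LinearMap.finrank_range_of_inj hψinj, Module.finrank_pi, finrank_centrePart_idemF e.2,
        card_top_block hM hm hab, Nat.card_eq_fintype_card]
  have hmem : restr (Subgroup.centralizer (P : Set G)) w ∈ centrePart (idemF M e.1) := by
    rw [mem_centrePart hec hee]
    refine ⟨BrauerPairs.isCentralElt_restr M hw, ?_⟩
    conv_rhs => rw [← hwe]
    rw [restr_mul_of_supported ((pairSys M G P).central_idem e).supp]
    congr 1
    exact (restr_incl (Subgroup.centralizer (P : Set G)) _).symm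
  rw [← hrange] at hmem
  obtain ⟨c, hc⟩ := hmem
  exact ⟨c, by rw [← hψ, hc, incl_restr_of_supported hw.supp]⟩

end Cfsg.Agent.BlkDeg
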