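import Cfsg.Agent.BlkDeg.Proj
import Cfsg.Agent.BlkDeg.Local
import Cfsg.Agent.Brauer.Projective

/-!
# Blocks with abelian defect group and constant degree are nilpotent

The Brauer map is injective on the centre of such a block, whose dimension is the number of
characters, a multiple of the order of the defect group; so the stabilizer of a maximal pair fixes
the defect group.
-/

set_option autoImplicit false
set_option linter.style.haveILetI false
set_option linter.unusedSectionVars false
set_option maxHeartbeats 1000000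

namespace Cfsg.Agent.BlkDeg

open Cfsg Cfsg.Agent.Block Cfsg.Agent.BrauerPairs
open Cfsg.Agent.Brauer.ProjVec (ev)
open MonoidAlgebra (single)
open scoped ComplexConjugate Classical

universe u

variable {p : ℕ} [Fact p.Prime] {M : Ideal AlgInt} [M.IsPrime] [CharP (ResF M) p]
  {G : Type u} [Group G] [Fintype G] {B : Set (IrrCharacter G)}

/-- The Brauer map at a defect group is injective on the centre of a block of constant degree. -/
theorem eq_zero_of_trunc_eq_zero (hM : IsPModular p M) (hB : IsPBlock M B) {d0 : ℕ}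
    (hd : ∀ χ ∈ B, charDegree ((χ : IrrCharacter G) : G → ℂ) = d0) {D : Subgroup G}
    (hD : IsDefectGroup p M B D)
    (h0 : ∀ χ : IrrCharacter G, χ ∈ B → blockHeight p B (χ : G → ℂ) = 0)
    {z : MonoidAlgebra (ResF M) G} (hz : IsCentralElt z) (hbz : idemF M B * z = z)
    (ht : BrauerPairs.trunc D z = 0) : z = 0 := by
  obtain ⟨g, hg, S, rfl⟩ := hD
  set D := (S : Subgroup _).map (Subgroup.centralizer ({g} : Set G)).subtype with hDdef
  have hDp : IsPGroup p D := S.isPGroup'.map _
  have hgC : g ∈ Subgroup.centralizer (D : Set G) := by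
    rw [Subgroup.mem_centralizer_iff]
    rintro _ ⟨y, -, rfl⟩
    exact Subgroup.mem_centralizer_singleton_iff.1 y.2
  have hex := exists_traceMap (M := M) hM hB hd
  obtain ⟨Z, hZ⟩ := hex
  have hirr : ∀ χ : IrrCharacter G, IsCharacter G (χ : G → ℂ) :=
    fun χ => Char.isCharacter_of_irr χ.2
  have hZc : ∀ a, IsCentralElt (Z a) := by
    intro a
    refine isCentralElt_of_commute fun y => eq_of_ev fun χ w => ?_
    rw [mul_assoc, mul_assoc (single y (1 : localRing M)),
      Brauer.ProjVec.ev_mul_comm (hirr χ) (single y (1 : localRing M)), mul_assoc (Z a) w, hZ, hZ,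
      Brauer.ProjVec.ev_mul_comm (hirr χ) w]
  set gS : MonoidAlgebra (localRing M) G := single g 1 with hgS
  set zi := toF M (Z gS) with hzi
  have hzic : IsCentralElt zi := (hZc gS).mapR _
  have hsupp : SuppIn (Subgroup.centralizer (D : Set G)) (toF M gS) := by
    intro y hy
    rw [coeff_mapR, hgS, MonoidAlgebra.coeff_single, Finsupp.single_eq_of_ne, map_zero]
    exact fun h => hy (h ▸ hgC)
  let τ : MonoidAlgebra (ResF M) G →ₗ[ResF M] ResF M :=
    { toFun := fun a => (z * a).coeff 1
      map_add' := fun a b => by simp [mul_add, MonoidAlgebra.coeff_add]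
      map_smul' := fun c a => by simp [mul_smul_comm, MonoidAlgebra.coeff_smul] }
  have hτ : ∀ a b, τ (a * b) = τ (b * a) := by
    intro a b
    have hsym : ∀ u v : MonoidAlgebra (ResF M) G, (u * v).coeff 1 = (v * u).coeff 1 := by
      intro u v
      rw [coeff_mul_sum' u v, Block.coeff_mul_sum v u]
      simp [mul_comm]
    show (z * (a * b)).coeff 1 = (z * (b * a)).coeff 1
    rw [← mul_assoc, hsym, ← mul_assoc b, ← isCentralElt_commute hz b, mul_assoc]
  have hzero : z * zi = 0 := by
    refine groupAlgebra_ext fun y => ?_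
    obtain ⟨x, hx⟩ := Brauer.ProjVec.toF_surjective (M := M)
      (single y⁻¹ (1 : ResF M))
    have h := Brauer.ProjVec.map_toF_eq_zero (Z gS * x - Z x * gS) (fun χ => by
      rw [map_sub, hZ, hZ]
      split_ifs <;> ring) τ hτ
    rw [map_sub, map_sub, sub_eq_zero, map_mul (toF M), map_mul (toF M), hx] at h
    have hfix : Fixed D (toF M (Z x) * toF M gS) :=
      ((centralIn_top_of_isCentralElt ((hZc x).mapR _)).fixed.mono le_top).mul
        (BrauerPairs.fixed_self_of_suppIn hsupp)
    have hR : τ (toF M (Z x) * toF M gS) = 0 := by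
      show (z * (toF M (Z x) * toF M gS)).coeff 1 = 0
      rw [← coeff_trunc_mem (P := D) _ (one_mem _),
        trunc_mul hDp ((centralIn_top_of_isCentralElt hz).fixed.mono le_top) hfix, ht, zero_mul]
      rfl
    rw [hR] at h
    have h' : (z * (zi * single y⁻¹ (1 : ResF M))).coeff 1 = 0 := h
    rw [← mul_assoc, coeff_mul_sum'] at h'
    simpa [Finsupp.single_apply, inv_inv] using h'
  obtain ⟨χ₀, hχ₀⟩ := pBlock_nonempty hB
  set s := redC M ((χ₀ : G → ℂ) g) with hs
  have hsne : s ≠ 0 := SubsecNZ.redC_ne_zero_of_height_zero hM hB hχ₀ (h0 χ₀ hχ₀) hg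
  have hlam : ∀ χ : IrrCharacter G, χ ∈ B → lam M (χ : G → ℂ) zi = s := by
    intro χ hχ
    rw [lam_eq_of_sameBlock χ.2 χ₀.2 (pBlock_sameBlock hB hχ hχ₀), hzi, lam_toF χ₀.2 (hZc gS)]
    congr 1
    rw [omega_apply, ← Brauer.ProjVec.ev_apply, ← mul_one (Z gS), hZ, if_pos hχ₀,
      Brauer.ProjVec.ev_one, mul_div_assoc, div_self (Char.irr_one_ne_zero χ₀.2), mul_one, hgS,
      Brauer.ProjVec.ev_apply, MonoidAlgebra.mapRingHom_single, map_one, charLin_single, one_mul]
  set n := zi - s • (1 : MonoidAlgebra (ResF M) G) with hn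
  have h1c : IsCentralElt (s • (1 : MonoidAlgebra (ResF M) G)) := fun a b => by
    simp only [MonoidAlgebra.coeff_smul, Finsupp.smul_apply]
    rw [IsCentralElt.one a b]
  have hnc : IsCentralElt n := hzic.sub h1c
  obtain ⟨k, hk⟩ := isNilpotent_idemF_mul hB hnc fun χ hχ => by
    rw [hn, lam_sub χ.2 hzic h1c, hlam χ hχ, lam_smul χ.2, lam_one χ.2, mul_one, sub_self]
  have hstep : z * (idemF M B * n) = (-s) • z := by
    rw [← mul_assoc, ← isCentralElt_commute (idemF_isCentralElt B), hbz, hn, mul_sub, hzero,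
      mul_smul_comm, mul_one, zero_sub, neg_smul]
  have hpow : ∀ j, z * (idemF M B * n) ^ j = (-s) ^ j • z := by
    intro j
    induction j with
    | zero => simp
    | succ j ih => rw [pow_succ, ← mul_assoc, ih, smul_mul_assoc, hstep, smul_smul, pow_succ]
  have hfin := hpow k
  rw [hk, mul_zero] at hfin
  exact (smul_eq_zero.1 hfin.symm).resolve_left (pow_ne_zero _ (neg_ne_zero.2 hsne))

/-- The order of a defect group divides the number of characters of a block of constant degree. -/
theorem card_defect_dvd (hM : IsPModular p M) (hB : IsPBlock M B) {d0 : ℕ}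
    (hd : ∀ χ ∈ B, charDegree ((χ : IrrCharacter G) : G → ℂ) = d0) {D : Subgroup G}
    (hD : IsDefectGroup p M B D)
    (h0 : ∀ χ : IrrCharacter G, χ ∈ B → blockHeight p B (χ : G → ℂ) = 0) :
    Nat.card D ∣ Nat.card B := by
  have hp := hM.1
  obtain ⟨χ₀, hχ₀⟩ := pBlock_nonempty hB
  have hd0 : d0 ≠ 0 := hd χ₀ hχ₀ ▸ (BlockVal.irr_one_eq_charDegree χ₀).2
  haveI : Nonempty B := ⟨⟨χ₀, hχ₀⟩⟩
  have hk : Nat.card B ≠ 0 := Nat.card_pos.ne'
  set f : G → ℂ := fun x => ∑ χ ∈ Finset.univ.filter (· ∈ B), (χ : G → ℂ) x with hf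
  have hcomb : f = ∑ η ∈ Finset.univ.filter (· ∈ B), (η : G → ℂ) := by
    funext x; rw [Finset.sum_apply]
  have hfc : IsClassFunction G f := fun a b =>
    Finset.sum_congr rfl fun χ _ => Char.irr_isClassFunction χ.2 a b
  have hint : ∀ χ : IrrCharacter G, MemLocalRing M (classInner f (χ : G → ℂ)) := by
    intro χ
    rw [hcomb, Char.classInner_sum_left]
    simp only [Char.classInner_irrCharacter, Finset.sum_ite_eq']
    split_ifs
    · exact (localRing M).one_mem
    · exact (localRing M).zero_mem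
  have h := Brauer.memLocalRing_div_pPart_of_vanish_singular hM f hfc hint
    fun x hx => sum_eq_zero_of_singular hM hB hd hx
  have hf1 : f 1 = ((Nat.card B * d0 : ℕ) : ℂ) := by
    simp only [hf]
    rw [Finset.sum_congr rfl (g := fun _ => (d0 : ℂ)) fun χ hχ => by
      rw [(BlockVal.irr_one_eq_charDegree χ).1, hd χ (Finset.mem_filter.1 hχ).2],
      Finset.sum_const, nsmul_eq_mul, ← Fintype.card_subtype, ← Nat.card_eq_fintype_card]
    push_cast
    rfl
  rw [hf1, memLocalRing_natCast_div_iff hM (Nat.mul_ne_zero hk hd0) (pow_ne_zero _ hp.ne_zero),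
    hp.factorization_pow, Finsupp.single_eq_same, Nat.factorization_mul hk hd0,
    Finsupp.add_apply] at h
  have hdef : blockDefect p B = (Nat.card G).factorization p - d0.factorization p := by
    rw [BlockVal.blockDefect_eq hχ₀ (h0 χ₀ hχ₀), hd χ₀ hχ₀]
  rw [card_isDefectGroup hM hB hD, hp.pow_dvd_iff_le_factorization hk]
  omega

/-- An abelian defect group and constant degree force nilpotency. -/
theorem isNilpotentBlock_of_equal_degrees (hM : IsPModular p M) (hB : IsPBlock M B) {d0 : ℕ}
    (hd : ∀ χ ∈ B, charDegree ((χ : IrrCharacter G) : G → ℂ) = d0) {D : Subgroup G}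
    (hD : IsDefectGroup p M B D) (hab : ∀ x ∈ D, ∀ y ∈ D, x * y = y * x)
    (h0 : ∀ χ : IrrCharacter G, χ ∈ B → blockHeight p B (χ : G → ℂ) = 0) :
    IsNilpotentBlock p M B := by
  obtain ⟨e, he⟩ := exists_maxPair_of_isDef (S := pairSys M G)
    (isDef_of_isDefectGroup (B := (⟨B, hB⟩ : Blk M G)) hD)
  have hm : IsMaximalBrauerPair p M B D e.1 :=
    (isMaximalBrauerPair_iff (⟨B, hB⟩ : Blk M G) ⟨D, e⟩).2 he
  have hP : IsPGroup p D := hm.1.1.1
  rw [isNilpotentBlock_iff_abelian hm hab]
  set ē := (pairSys M G D).idem e with hē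
  let T : MonoidAlgebra (ResF M) G →ₗ[ResF M] MonoidAlgebra (ResF M) G :=
    { toFun := fun z => BrauerPairs.trunc D z * ē
      map_add' := fun a b => by rw [map_add, add_mul]
      map_smul' := fun c a => by
        rw [BrauerPairs.Nil.trunc_smul, RingHom.id_apply, smul_mul_assoc] }
  have hbc : IsCentralElt (idemF M B) := idemF_isCentralElt B
  have hbb : idemF M B * idemF M B = idemF M B := idemF_mul_self hB
  have hfix : ∀ z : MonoidAlgebra (ResF M) G, IsCentralElt z → ∀ x ∈
      Subgroup.normalizer (D : Set G), cj x (BrauerPairs.trunc D z) = BrauerPairs.trunc D z := by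
    intro z hz x hx
    rw [← trunc_cj, map_conj_of_mem_normalizer hx,
      fixed_iff_cj.1 (centralIn_top_of_isCentralElt hz).fixed x (Subgroup.mem_top x)]
  -- injectivity
  have hker : ∀ z ∈ centrePart (idemF M B), T z = 0 → z = 0 := by
    intro z hz hTz
    obtain ⟨hzc, hzb⟩ := (mem_centrePart hbc hbb).1 hz
    refine eq_zero_of_trunc_eq_zero hM hB hd hD h0 hzc hzb ?_
    have htop := centralIn_top_of_isCentralElt hbc
    have hsplit : BrauerPairs.trunc D z = BrauerPairs.trunc D z * BrauerPairs.trunc D (idemF M B) := by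
      rw [← trunc_mul hP ((centralIn_top_of_isCentralElt hzc).fixed.mono le_top)
        (htop.fixed.mono le_top), ← isCentralElt_commute hbc, hzb]
    rw [hsplit, (pairSys M G D).eq_sum_idem (centralIn_trunc_of_top htop D)
      (by rw [← trunc_mul hP (htop.fixed.mono le_top) (htop.fixed.mono le_top), hbb]),
      Finset.mul_sum]
    refine Finset.sum_eq_zero fun i hi => ?_
    have hi2 := (Finset.mem_filter.1 hi).2
    have htopB : (blockSysTop M).idem (⟨B, hB⟩ : Blk M G) = idemF M B := rfl
    have hpair : PairOf (blockSysTop M) (pairSys M G) p (⟨B, hB⟩ : Blk M G) ⟨D, i⟩ := by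
      refine ⟨hP, ?_⟩
      rw [htopB]
      exact hi2
    have hconj := MaxPair.exists_conj_same he hpair
    obtain ⟨x, hx, hxi⟩ := hconj
    rw [hxi, ← hfix z hzc x hx, ← map_mul]
    rw [show BrauerPairs.trunc D z * ē = 0 from hTz, map_zero]
  -- invariant coefficient functions
  let U : Submodule (ResF M) (D → ResF M) :=
    { carrier := {c | ∀ n ∈ stab (⟨D, e⟩ : PairIdx M G), ∀ u v : D,
        (v : G) = n * (u : G) * n⁻¹ → c v = c u}
      add_mem' := fun {c c'} hc hc' n hn u v h => by
        simp only [Pi.add_apply, hc n hn u v h, hc' n hn u v h]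
      zero_mem' := fun n _ u v _ => rfl
      smul_mem' := fun r c hc n hn u v h => by simp only [Pi.smul_apply, hc n hn u v h] }
  have himage : ∀ z ∈ centrePart (idemF M B), T z ∈ U.map (translate e) := by
    intro z hz
    obtain ⟨hzc, -⟩ := (mem_centrePart hbc hbb).1 hz
    have hec := (pairSys M G D).central_idem e
    have htc := centralIn_trunc_of_top (centralIn_top_of_isCentralElt hzc) D
    have hcomm : Commute ē (BrauerPairs.trunc D z) := CentralIn.commute hec.fixed htc.supp
    obtain ⟨c, hc⟩ := exists_translate_eq hM hm hab (w := T z) (htc.mul hec) (by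
      show ē * (BrauerPairs.trunc D z * ē) = BrauerPairs.trunc D z * ē
      rw [← mul_assoc, hcomm.eq, mul_assoc, (pairSys M G D).idem_mul_self])
    refine ⟨c, fun n hn u v huv => ?_, hc⟩
    let σ : D ≃ D :=
      { toFun := fun u => ⟨n * (u : G) * n⁻¹, (Subgroup.mem_normalizer_iff.1 hn.1 u).1 u.2⟩
        invFun := fun u => ⟨n⁻¹ * (u : G) * n, by
          have := (Subgroup.mem_normalizer_iff.1 (inv_mem hn.1) u).1 u.2
          rwa [inv_inv] at this⟩
        left_inv := fun u => Subtype.ext (by simp [mul_assoc])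
        right_inv := fun u => Subtype.ext (by simp [mul_assoc]) }
    have hsingle : ∀ u : D, cj n (single (u : G) (1 : ResF M)) = single ((σ u : D) : G) 1 := by
      intro u
      simp [cj, σ]
    have hσ : translate e (c ∘ σ.symm) = translate e c := by
      conv_rhs => rw [hc, show T z = cj n (T z) by
        show BrauerPairs.trunc D z * ē = cj n (BrauerPairs.trunc D z * ē)
        rw [map_mul, hfix z hzc n hn.1, hn.2], ← hc]
      rw [translate_apply, translate_apply, map_sum]
      refine (Fintype.sum_equiv σ _ _ fun u => ?_).symm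
      rw [map_smul, map_mul, hsingle, hn.2, Function.comp_apply, Equiv.symm_apply_apply]
    have hσv : v = σ u := Subtype.ext huv
    have := congrFun (translate_injective hM hP hσ) v
    rw [Function.comp_apply, hσv, Equiv.symm_apply_apply] at this
    rw [hσv]
    exact this.symm
  -- dimensions
  haveI : FiniteDimensional (ResF M) (MonoidAlgebra (ResF M) G) :=
    Module.Finite.of_basis (MonoidAlgebra.basis G (ResF M))
  have hinj : Function.Injective (T.comp (centrePart (idemF M B)).subtype) := by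
    rw [injective_iff_map_eq_zero]
    exact fun z hz => Subtype.ext (hker z z.2 hz)
  have hle : Nat.card B ≤ Module.finrank (ResF M) U := by
    rw [← finrank_centrePart_idemF (M := M) hB, ← LinearMap.finrank_range_of_inj hinj]
    refine (Submodule.finrank_mono (t := U.map (translate e)) ?_).trans (Submodule.finrank_map_le _ _)
    rintro _ ⟨z, rfl⟩
    exact himage z z.2
  obtain ⟨χ₀, hχ₀⟩ := pBlock_nonempty hB
  haveI : Nonempty B := ⟨⟨χ₀, hχ₀⟩⟩
  have hDk : Nat.card D ≤ Nat.card B :=
    Nat.le_of_dvd Nat.card_pos (card_defect_dvd hM hB hd hD h0)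
  have hU : U = ⊤ := Submodule.eq_top_of_finrank_eq (le_antisymm (Submodule.finrank_le _) (by
    rw [Module.finrank_pi, ← Nat.card_eq_fintype_card]
    exact hDk.trans hle))
  intro n hn
  rw [Subgroup.mem_centralizer_iff]
  intro u hu
  have hv : n * u * n⁻¹ ∈ D := (Subgroup.mem_normalizer_iff.1 hn.1 u).1 hu
  have hc : (Pi.single (⟨u, hu⟩ : D) 1 : D → ResF M) ∈ U := hU ▸ Submodule.mem_top
  have h := hc n hn ⟨u, hu⟩ ⟨_, hv⟩ rfl
  rw [Pi.single_eq_same] at h
  by_cases heq : (⟨_, hv⟩ : D) = ⟨u, hu⟩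
  · have h' : n * u * n⁻¹ = u := congrArg Subtype.val heq
    exact (mul_inv_eq_iff_eq_mul.1 h').symm
  · rw [Pi.single_eq_of_ne heq] at h
    exact absurd h zero_ne_one

/-- A nilpotent block with abelian defect group has constant degree. -/
theorem exists_degree_of_nilpotent (hM : IsPModular p M) (hnil : IsNilpotentBlock p M B)
    {D : Subgroup G} (hD : IsDefectGroup p M B D) (hab : ∀ x ∈ D, ∀ y ∈ D, x * y = y * x) :
    ∃ d : ℕ, ∀ χ : IrrCharacter G, χ ∈ B → charDegree (χ : G → ℂ) = d := by
  have hex := Nil.exists_nilData hM ⟨B, hnil.1⟩ hnil hD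
  obtain ⟨N, hNB, hNP⟩ := hex
  obtain ⟨χ, hχ, hh⟩ := BlockVal.exists_height_zero (p := p) (pBlock_nonempty N.B.2)
  obtain ⟨Φ, hΦ⟩ := N.exists_equiv hχ hh
  refine ⟨charDegree (χ : G → ℂ), fun ψ hψ => ?_⟩
  have hψ' : ψ ∈ N.B.1 := by rw [hNB]; exact hψ
  have h := hΦ ⟨ψ, hψ'⟩ 1 (by simpa using (Fact.out : p.Prime).one_lt.ne')
  have hlin : charDegree ((Φ ⟨ψ, hψ'⟩ : IrrCharacter N.P) : N.P → ℂ) = 1 := by
    have h1 := Char.irr_degree_one_of_comm (fun a b : N.P => Subtype.ext (hab _ (hNP ▸ a.2) _
      (hNP ▸ b.2))) (Φ ⟨ψ, hψ'⟩).2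
    rw [(BlockVal.irr_one_eq_charDegree _).1] at h1
    exact_mod_cast h1
  rw [hlin, Nat.cast_one, one_mul, (BlockVal.irr_one_eq_charDegree ψ).1,
    (BlockVal.irr_one_eq_charDegree χ).1] at h
  exact_mod_cast h

end Cfsg.Agent.BlkDeg
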