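import Cfsg.Agent.BrauerPairs.InducedIn
import Cfsg.Agent.BrauerPairs.Nilpotent
import Cfsg.Agent.BrauerPairs.BlockFS

/-!
# Pairs below a maximal pair on a normal subgroup

The maximal pairs above a given pair are conjugate under the centralizer of its subgroup, so a
nilpotency test on the stabilizer of the maximal pair is enough.
-/

set_option autoImplicit false
set_option linter.style.haveILetI false
set_option linter.unusedSectionVars false

namespace Cfsg.Agent.BlkDeg

open Cfsg Cfsg.Agent.Block Cfsg.Agent.BrauerPairs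
open scoped Classical

universe u

variable {p : ℕ} [Fact p.Prime] {M : Ideal AlgInt} [M.IsPrime] [CharP (ResF M) p]
  {G : Type u} [Group G] [Finite G]

/-- The central characters along a normal inclusion, for a central element fixed by the top. -/
theorem lam_trunc_of_fixed {a b : PairIdx M G} (h : NSub (pairSys M G) p a b)
    {z : MonoidAlgebra (ResF M) G} (hz : CentralIn (Subgroup.centralizer (a.1 : Set G)) z)
    (hzf : Fixed b.1 z) :
    (pairSys M G b.1).lam b.2 (BrauerPairs.trunc b.1 z) = (pairSys M G a.1).lam a.2 z := by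
  set c := (pairSys M G a.1).lam a.2 z
  set q := (pairSys M G a.1).idem a.2 * (z - c • (1 : MonoidAlgebra (ResF M) G)) with hq
  have hI := (pairSys M G a.1).central_idem a.2
  have hb : CentralIn (Subgroup.centralizer (a.1 : Set G))
      (z - c • (1 : MonoidAlgebra (ResF M) G)) := hz.sub (CentralIn.one.smul _)
  have hbf : Fixed b.1 (z - c • (1 : MonoidAlgebra (ResF M) G)) := by
    rw [fixed_iff_cj] at hzf ⊢
    intro r hr
    rw [map_sub, map_smul, map_one, hzf r hr]
  have hcT : ∀ {w : MonoidAlgebra (ResF M) G}, CentralIn (Subgroup.centralizer (a.1 : Set G)) w →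
      CentralIn (Subgroup.centralizer (b.1 : Set G)) (BrauerPairs.trunc b.1 w) := fun hw =>
    BrauerPairs.centralIn_trunc (hw.fixed.mono (centralizer_anti h.2.1))
      (Subgroup.centralizer_le_normalizer _) le_rfl
  obtain ⟨n, hn⟩ := (pairSys M G a.1).isNilpotent_sub_lam a.2 hz
  have hqf : Fixed b.1 q := h.2.2.2.1.mul hbf
  have hpow : ∀ m : ℕ, BrauerPairs.trunc b.1 (q ^ m) = BrauerPairs.trunc b.1 q ^ m := by
    intro m
    induction m with
    | zero => simp [BrauerPairs.trunc_one]
    | succ m ih => rw [pow_succ, pow_succ, trunc_mul h.1 (hqf.pow m) hqf, ih]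
  have hnil : IsNilpotent (BrauerPairs.trunc b.1 q) := ⟨n, by rw [← hpow, hq, hn, map_zero]⟩
  have h0 := (pairSys M G b.1).lam_eq_zero_of_isNilpotent b.2 (hcT (hI.mul hb)) hnil
  rw [trunc_mul h.1 h.2.2.2.1 hbf, (pairSys M G b.1).lam_mul b.2 _ _ (hcT hI) (hcT hb),
    h.2.2.2.2, one_mul, map_sub, (pairSys M G b.1).lam_sub b.2 (hcT hz)
      (hcT (CentralIn.one.smul c))] at h0
  have hsm : BrauerPairs.trunc b.1 (c • (1 : MonoidAlgebra (ResF M) G)) = c • 1 := by
    apply trunc_eq_self_iff.2
    exact (CentralIn.one.smul c).supp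
  rw [hsm, (pairSys M G b.1).lam_smul b.2 c _ CentralIn.one, (pairSys M G b.1).lam_one, mul_one,
    sub_eq_zero] at h0
  exact h0

variable {D : Subgroup G} [D.Normal]

/-- The blocks of `C(D)` conjugate to `e` under `C(R)`. -/
noncomputable def orbBlk (e : Blk M (Subgroup.centralizer (D : Set G))) (R : Subgroup G) :
    Finset (Blk M (Subgroup.centralizer (D : Set G))) :=
  Finset.univ.filter fun j => ∃ x ∈ Subgroup.centralizer (R : Set G),
    (pairSys M G D).idem j = cj x ((pairSys M G D).idem e)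

/-- The sum of their idempotents. -/
noncomputable def orbSum (e : Blk M (Subgroup.centralizer (D : Set G))) (R : Subgroup G) :
    MonoidAlgebra (ResF M) G :=
  ∑ j ∈ orbBlk e R, (pairSys M G D).idem j

theorem mem_orbBlk {e j : Blk M (Subgroup.centralizer (D : Set G))} {R : Subgroup G} :
    j ∈ orbBlk e R ↔ ∃ x ∈ Subgroup.centralizer (R : Set G),
      (pairSys M G D).idem j = cj x ((pairSys M G D).idem e) := by
  simp [orbBlk]

theorem self_mem_orbBlk (e : Blk M (Subgroup.centralizer (D : Set G))) (R : Subgroup G) :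
    e ∈ orbBlk e R :=
  mem_orbBlk.2 ⟨1, one_mem _, (cj_one _).symm⟩

theorem cj_orbSum {e : Blk M (Subgroup.centralizer (D : Set G))} {R : Subgroup G} {u : G}
    (hu : ∀ x ∈ Subgroup.centralizer (R : Set G), ∃ y ∈ Subgroup.centralizer (R : Set G),
      cj u (cj x ((pairSys M G D).idem e)) = cj y ((pairSys M G D).idem e)) :
    cj u (orbSum e R) = orbSum e R := by
  choose f hf hfu using fun i : Blk M (Subgroup.centralizer (D : Set G)) =>
    (pairSys M G D).exists_idem_eq_cj (pairSys M G D) u (by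
      rw [← centralizer_map_conj, map_conj_of_mem_normalizer (by
        rw [Subgroup.normalizer_eq_top_iff.2 ‹D.Normal›]; trivial)]) i
  have hinj : Function.Injective f := fun i j h => (pairSys M G D).idem_injective (by
    rw [← cj_inv_cj u ((pairSys M G D).idem i), ← hf i, h, hf j, cj_inv_cj])
  have himg : (orbBlk e R).image f = orbBlk e R := by
    refine Finset.eq_of_subset_of_card_le (fun j hj => ?_) (by
      rw [Finset.card_image_of_injective _ hinj])
    obtain ⟨i, hi, rfl⟩ := Finset.mem_image.1 hj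
    obtain ⟨x, hx, hix⟩ := mem_orbBlk.1 hi
    obtain ⟨y, hy, hxy⟩ := hu x hx
    exact mem_orbBlk.2 ⟨y, hy, by rw [hf i, hix, hxy]⟩
  conv_rhs => rw [orbSum, ← himg, Finset.sum_image fun i _ j _ h => hinj h]
  rw [orbSum, map_sum]
  exact Finset.sum_congr rfl fun i _ => (hf i).symm

theorem suppIn_orbSum (e : Blk M (Subgroup.centralizer (D : Set G))) (R : Subgroup G) :
    SuppIn (Subgroup.centralizer (D : Set G)) (orbSum e R) :=
  (CentralIn.sum _ fun j _ => (pairSys M G D).central_idem j).supp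

theorem centralIn_orbSum (e : Blk M (Subgroup.centralizer (D : Set G))) {R : Subgroup G}
    (hR : R ≤ D) : CentralIn (Subgroup.centralizer (R : Set G)) (orbSum e R) :=
  ⟨(suppIn_orbSum e R).mono (centralizer_anti hR), fixed_iff_cj.2 fun u hu =>
    cj_orbSum fun x hx => ⟨u * x, mul_mem hu hx, cj_cj u x _⟩⟩

theorem fixed_orbSum (e : Blk M (Subgroup.centralizer (D : Set G))) {R S : Subgroup G}
    (hS : S ≤ D) (hN : S ≤ Subgroup.normalizer (R : Set G)) : Fixed S (orbSum e R) := by
  refine fixed_iff_cj.2 fun u hu => cj_orbSum fun x hx => ⟨u * x * u⁻¹, ?_, ?_⟩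
  · rw [← map_conj_of_mem_normalizer (hN hu), centralizer_map_conj, mem_map_conj_iff]
    simpa [mul_assoc] using hx
  · have he : cj u ((pairSys M G D).idem e) = (pairSys M G D).idem e :=
      fixed_iff_cj.1 (BrauerPairs.fixed_self_of_suppIn ((pairSys M G D).central_idem e).supp) u
        (hS hu)
    conv_rhs => rw [← he, cj_cj, inv_mul_cancel_right]
    rw [cj_cj]

theorem orbSum_mul_orbSum {e : Blk M (Subgroup.centralizer (D : Set G))} {R R' : Subgroup G}
    (h : R ≤ R') : orbSum e R * orbSum e R' = orbSum e R' := by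
  have hsub : orbBlk e R' ⊆ orbBlk e R := fun j hj => by
    obtain ⟨x, hx, hjx⟩ := mem_orbBlk.1 hj
    exact mem_orbBlk.2 ⟨x, centralizer_anti h hx, hjx⟩
  rw [orbSum, orbSum, Finset.mul_sum]
  refine Finset.sum_congr rfl fun j hj => ?_
  rw [Finset.sum_mul, Finset.sum_eq_single j (fun i _ hij => (pairSys M G D).idem_mul_ne i j hij)
    (fun h' => absurd (hsub hj) h'), (pairSys M G D).idem_mul_self]

/-- Along a chain to `(D, e)` the orbit sums are seen with value one. -/
theorem lam_orbSum {e : Blk M (Subgroup.centralizer (D : Set G))} {a : PairIdx M G}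
    (h : SLE (pairSys M G) p a ⟨D, e⟩) :
    (pairSys M G a.1).lam a.2 (orbSum e a.1) = 1 := by
  induction h using Relation.ReflTransGen.head_induction_on with
  | refl =>
    show (pairSys M G D).lam e (orbSum e D) = 1
    rw [orbSum, (pairSys M G D).lam_sum e _ fun j _ => (pairSys M G D).central_idem j,
      Finset.sum_eq_single e (fun j _ hj => (pairSys M G D).lam_idem_ne (Ne.symm hj))
        (fun h' => absurd (self_mem_orbBlk e D) h'), (pairSys M G D).lam_idem_self]
  | @head a b hab hb ih =>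
    have hbD : b.1 ≤ D := SLE.le hb
    have haD : a.1 ≤ D := hab.2.1.trans hbD
    have hc := centralIn_orbSum (M := M) e haD
    have hf : Fixed b.1 (orbSum e a.1) := fixed_orbSum e hbD hab.2.2.1
    rw [← lam_trunc_of_fixed hab hc hf,
      trunc_eq_self_iff.2 ((suppIn_orbSum e a.1).mono (centralizer_anti hbD))]
    have hcb : CentralIn (Subgroup.centralizer (b.1 : Set G)) (orbSum e a.1) :=
      ⟨(suppIn_orbSum e a.1).mono (centralizer_anti hbD),
        hc.fixed.mono (centralizer_anti hab.2.1)⟩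
    have h1 := congrArg ((pairSys M G b.1).lam b.2) (orbSum_mul_orbSum (e := e) hab.2.1)
    rwa [(pairSys M G b.1).lam_mul b.2 _ _ hcb (centralIn_orbSum e hbD), ih, mul_one] at h1

/-- The maximal pairs above a pair are conjugate under its centralizer. -/
theorem exists_conj_of_sle {e e' : Blk M (Subgroup.centralizer (D : Set G))} {a : PairIdx M G}
    (h : SLE (pairSys M G) p a ⟨D, e⟩) (h' : SLE (pairSys M G) p a ⟨D, e'⟩) :
    ∃ c ∈ Subgroup.centralizer (a.1 : Set G),
      (pairSys M G D).idem e' = cj c ((pairSys M G D).idem e) := by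
  by_contra hcon
  push Not at hcon
  have hmul : orbSum e a.1 * orbSum e' a.1 = 0 := by
    rw [orbSum, orbSum, Finset.sum_mul]
    refine Finset.sum_eq_zero fun i hi => ?_
    rw [Finset.mul_sum]
    refine Finset.sum_eq_zero fun j hj => (pairSys M G D).idem_mul_ne i j fun hij => ?_
    obtain ⟨x, hx, hix⟩ := mem_orbBlk.1 hi
    obtain ⟨y, hy, hjy⟩ := mem_orbBlk.1 hj
    subst hij
    refine hcon (y⁻¹ * x) (mul_mem (inv_mem hy) hx) ?_
    rw [← cj_cj, ← hix, hjy, cj_inv_cj]
  have hle : a.1 ≤ D := SLE.le h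
  have h1 := (pairSys M G a.1).lam_mul a.2 _ _ (centralIn_orbSum (M := M) e hle)
    (centralIn_orbSum (M := M) e' hle)
  rw [hmul, (pairSys M G a.1).lam_zero, lam_orbSum h, lam_orbSum h', mul_one] at h1
  exact zero_ne_one h1

/-- Nilpotency from the stabilizer of a maximal pair on a normal subgroup. -/
theorem isNilpotentBlock_of_normal {B : Blk M G}
    {e : Blk M (Subgroup.centralizer (D : Set G))}
    (hm : MaxPair (blockSysTop M) (pairSys M G) p B ⟨D, e⟩)
    (h : ∀ z ∈ stab (⟨D, e⟩ : PairIdx M G), IsPRegular p z →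
      z ∈ Subgroup.centralizer (D : Set G)) : IsNilpotentBlock p M B.1 := by
  refine isNilpotentBlock_of_sle hm fun a ha x hx hreg => ?_
  obtain ⟨⟨R, e'⟩, hb⟩ := exists_cjRel (S := pairSys M G) x (⟨D, e⟩ : PairIdx M G)
  obtain rfl : D = R := (map_conj_of_mem_normalizer (by
    rw [Subgroup.normalizer_eq_top_iff.2 ‹D.Normal›]; trivial)).symm.trans hb.1
  have ha' : SLE (pairSys M G) p a ⟨D, e'⟩ := ha.cjRel (cjRel_self_of_mem_stab hx) hb
  obtain ⟨c, hc, hce⟩ := exists_conj_of_sle ha ha'
  set y := c⁻¹ * x with hy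
  have hcN : c ∈ Subgroup.normalizer (a.1 : Set G) := Subgroup.centralizer_le_normalizer _ hc
  have hyN : y ∈ Subgroup.normalizer (a.1 : Set G) := mul_mem (inv_mem hcN) hx.1
  have hye : y ∈ stab (⟨D, e⟩ : PairIdx M G) := by
    refine mem_stab.2 ⟨by rw [Subgroup.normalizer_eq_top_iff.2 ‹D.Normal›]; trivial, ?_⟩
    show cj y ((pairSys M G D).idem e) = (pairSys M G D).idem e
    rw [hy, ← cj_cj, ← hb.2]
    show cj c⁻¹ ((pairSys M G D).idem e') = _
    rw [hce, cj_inv_cj]
  obtain ⟨k, hk⟩ := exists_pow_isPRegular (p := p) y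
  have hyk := h _ (pow_mem hye _) hk
  -- conjugation by `x` and by `y` agree on the subgroup
  have hact : ∀ (n : ℕ), ∀ q ∈ a.1, x ^ n * q * (x ^ n)⁻¹ = y ^ n * q * (y ^ n)⁻¹ := by
    intro n
    induction n with
    | zero => intro q _; simp
    | succ n ih =>
      intro q hq
      have hq1 : y * q * y⁻¹ ∈ a.1 := (Subgroup.mem_normalizer_iff.1 hyN q).1 hq
      have hstep : x * q * x⁻¹ = y * q * y⁻¹ := by
        have hq2 : x * q * x⁻¹ ∈ a.1 := (Subgroup.mem_normalizer_iff.1 hx.1 q).1 hq
        have := Subgroup.mem_centralizer_iff.1 (inv_mem hc) _ hq2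
        calc x * q * x⁻¹ = (x * q * x⁻¹ * c⁻¹) * c := by group
          _ = (c⁻¹ * (x * q * x⁻¹)) * c := by rw [this]
          _ = y * q * y⁻¹ := by rw [hy]; group
      calc x ^ (n + 1) * q * (x ^ (n + 1))⁻¹ = x ^ n * (x * q * x⁻¹) * (x ^ n)⁻¹ := by
            rw [pow_succ]; group
        _ = y ^ n * (y * q * y⁻¹) * (y ^ n)⁻¹ := by rw [hstep, ih _ hq1]
        _ = y ^ (n + 1) * q * (y ^ (n + 1))⁻¹ := by rw [pow_succ]; group
  have hxk : x ^ p ^ k ∈ Subgroup.centralizer (a.1 : Set G) := by
    rw [Subgroup.mem_centralizer_iff]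
    intro q hq
    have h1 := hact (p ^ k) q hq
    rw [← Subgroup.mem_centralizer_iff.1 hyk q (SLE.le ha hq), mul_inv_cancel_right] at h1
    exact (mul_inv_eq_iff_eq_mul.1 h1).symm
  have hcop : (p ^ k).Coprime (orderOf x) :=
    (((Fact.out : p.Prime).coprime_iff_not_dvd).2 hreg).pow_left k
  obtain ⟨m, hm'⟩ := exists_pow_eq_self_of_coprime hcop
  rw [← hm']
  exact pow_mem hxk m

end Cfsg.Agent.BlkDeg
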