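import Cfsg.Agent.Brauer.RankOneBlock

/-!
# Blocks all of whose characters have the same degree: the trace map

When the members of a block all have degree `d0`, the block has a single class of primitive
idempotents, each of which has the value `1` at every member.  Spreading such an idempotent over
the block gives an additive map into the centre whose central characters are the characters.
-/

set_option autoImplicit false
set_option linter.style.haveILetI false
set_option maxHeartbeats 1000000

namespace Cfsg.Agent.BlkDeg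

open Cfsg Cfsg.Agent.Block
open Cfsg.Agent.Brauer
open Cfsg.Agent.Brauer.ProjVec (ev)
open MonoidAlgebra (single)
open scoped ComplexConjugate Classical

universe u

variable {G : Type u} [Group G] [Fintype G] {p : ℕ} {M : Ideal AlgInt} [M.IsPrime]
  {B : Set (IrrCharacter G)}

/-- An element of the group algebra over the local ring on which all characters vanish. -/
theorem eq_zero_of_ev (x : MonoidAlgebra (localRing M) G)
    (h : ∀ (χ : IrrCharacter G) (w : MonoidAlgebra (localRing M) G),
      ev (χ : G → ℂ) (x * w) = 0) : x = 0 := by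
  refine groupAlgebra_ext fun g => ?_
  apply Subtype.ext
  have h1 := ProjVec.card_mul_coeff_one (x * single g⁻¹ (1 : localRing M))
  simp only [h, zero_mul, Finset.sum_const_zero, mul_eq_zero, Nat.cast_eq_zero,
    Nat.card_pos.ne', false_or] at h1
  rw [coeff_mul_sum'] at h1
  simpa [Finsupp.single_apply, inv_inv] using h1

theorem eq_of_ev {x y : MonoidAlgebra (localRing M) G}
    (h : ∀ (χ : IrrCharacter G) (w : MonoidAlgebra (localRing M) G),
      ev (χ : G → ℂ) (x * w) = ev (χ : G → ℂ) (y * w)) : x = y :=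
  sub_eq_zero.1 (eq_zero_of_ev (x - y) fun χ w => by rw [sub_mul, map_sub, h, sub_self])

omit [Fintype G] in
/-- The character of a representation as a trace on the group algebra over the local ring. -/
theorem exists_rep {χ : G → ℂ} (hχ : IsCharacter G χ) :
    ∃ (n : ℕ) (R : MonoidAlgebra (localRing M) G →+* Module.End ℂ (Fin n → ℂ)),
      ∀ a, ev χ a = LinearMap.trace ℂ (Fin n → ℂ) (R a) := by
  obtain ⟨n, ρ, rfl⟩ := hχ
  exact ⟨n, ρ.asAlgebraHom.toRingHom.comp (toC M),
    fun a => by rw [ProjVec.ev_apply, ProjVec.charLin_eq_trace]; rfl⟩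

/-- A rank one idempotent makes every corner element a scalar. -/
theorem corner_rank_one {n : ℕ} (P T : Module.End ℂ (Fin n → ℂ)) (hP : IsIdempotentElem P)
    (h : LinearMap.trace ℂ (Fin n → ℂ) P = 1) :
    P * T * P = LinearMap.trace ℂ (Fin n → ℂ) (P * T) • P := by
  have hproj := LinearMap.IsIdempotentElem.isProj_range _ hP
  have hr : Module.finrank ℂ (LinearMap.range P) = 1 := by
    have := hproj.trace
    rw [h] at this
    exact_mod_cast this.symm
  obtain ⟨⟨v, hv⟩, -, hall⟩ := finrank_eq_one_iff'.1 hr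
  have hPv : P v = v := hproj.map_id v hv
  obtain ⟨c, hc⟩ := hall ⟨P (T v), LinearMap.mem_range_self _ _⟩
  have hc' : c • v = P (T v) := congrArg Subtype.val hc
  have key : P * T * P = c • P := by
    refine LinearMap.ext fun u => ?_
    obtain ⟨a, ha⟩ := hall ⟨P u, LinearMap.mem_range_self _ _⟩
    have ha' : a • v = P u := congrArg Subtype.val ha
    show P (T (P u)) = c • P u
    rw [← ha', map_smul, map_smul, ← hc', smul_comm]
  have htr : LinearMap.trace ℂ (Fin n → ℂ) (P * T * P) =
      LinearMap.trace ℂ (Fin n → ℂ) (P * T) := by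
    rw [LinearMap.trace_mul_comm, ← mul_assoc, hP.eq]
  rw [key, map_smul, h, smul_eq_mul, mul_one] at htr
  rw [key, htr]

omit [Fintype G] in
/-- A value one idempotent: the corner is seen through the character. -/
theorem ev_corner {χ : G → ℂ} (hχ : IsCharacter G χ) {e : MonoidAlgebra (localRing M) G}
    (he : IsIdempotentElem e) (h1 : ev χ e = 1) (a w : MonoidAlgebra (localRing M) G) :
    ev χ (e * a * e * w) = ev χ (e * a) * ev χ (e * w) := by
  obtain ⟨n, R, hR⟩ := exists_rep (M := M) hχ
  simp only [hR, map_mul]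
  rw [corner_rank_one (R e) (R a) (he.map R) (by rw [← hR]; exact h1), smul_mul_assoc, map_smul,
    smul_eq_mul]

omit [Fintype G] in
/-- A value zero idempotent is not seen by the character. -/
theorem ev_idem_mul_eq_zero {χ : G → ℂ} (hχ : IsCharacter G χ) {e : MonoidAlgebra (localRing M) G}
    (he : IsIdempotentElem e) (h0 : ev χ e = 0) (w : MonoidAlgebra (localRing M) G) :
    ev χ (e * w) = 0 := by
  obtain ⟨n, R, hR⟩ := exists_rep (M := M) hχ
  have hP : IsIdempotentElem (R e) := he.map R
  have hz : R e = 0 := (LinearMap.IsIdempotentElem.trace_eq_zero_iff hP).1 (by rw [← hR]; exact h0)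
  rw [hR, map_mul, hz, zero_mul, map_zero]

/-- The two-sided span of an element. -/
def twoSpan {k A : Type*} [CommRing k] [Ring A] [Algebra k A] (e : A) : Submodule k A :=
  Submodule.span k (Set.range fun q : A × A => q.1 * e * q.2)

theorem mem_twoSpan_self {k A : Type*} [CommRing k] [Ring A] [Algebra k A] (e : A) :
    e ∈ twoSpan (k := k) e :=
  Submodule.subset_span ⟨(1, 1), by simp⟩

theorem mul_eq_zero_of_twoSpan {k A : Type*} [CommRing k] [Ring A] [Algebra k A] {e f x y : A}
    (h : ∀ a, e * a * f = 0) (hx : x ∈ twoSpan (k := k) e) (hy : y ∈ twoSpan (k := k) f) (a : A) :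
    x * a * y = 0 := by
  have h1 : ∀ a : A, e * a * y = 0 := by
    refine Submodule.span_induction ?_ ?_ ?_ ?_ hy
    · rintro _ ⟨q, rfl⟩ a
      calc e * a * (q.1 * f * q.2) = e * (a * q.1) * f * q.2 := by simp only [mul_assoc]
        _ = 0 := by rw [h, zero_mul]
    · intro a; rw [mul_zero]
    · intro u v _ _ hu hv a; rw [mul_add, hu, hv, add_zero]
    · intro c u _ hu a; rw [mul_smul_comm, hu, smul_zero]
  refine Submodule.span_induction (p := fun x _ => x * a * y = 0) ?_ ?_ ?_ ?_ hx
  · rintro _ ⟨q, rfl⟩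
    calc q.1 * e * q.2 * a * y = q.1 * (e * (q.2 * a) * y) := by simp only [mul_assoc]
      _ = 0 := by rw [h1, mul_zero]
  · rw [zero_mul, zero_mul]
  · intro u v _ _ hu hv; rw [add_mul, add_mul, hu, hv, add_zero]
  · intro c u _ hu; rw [smul_mul_assoc, smul_mul_assoc, hu, smul_zero]

/-- The sum of the characters of a block of constant degree vanishes on the singular elements. -/
theorem sum_eq_zero_of_singular (hM : IsPModular p M) (hB : IsPBlock M B) {d0 : ℕ}
    (hd : ∀ χ ∈ B, charDegree ((χ : IrrCharacter G) : G → ℂ) = d0) {x : G} (hx : p ∣ orderOf x) :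
    ∑ χ ∈ Finset.univ.filter (· ∈ B), (χ : G → ℂ) x = 0 := by
  obtain ⟨χ₀, hχ₀⟩ := pBlock_nonempty hB
  have h := weakOrth_of_integral hM B (fun g => blockCoeff_memLocalRing hB g) (x := 1) (y := x)
    (by rw [orderOf_one]; exact hM.1.not_dvd_one) hx
  rw [finsum_mem_eq_toFinset_sum] at h
  have h2 := congrArg (conj : ℂ → ℂ) h
  rw [map_sum, map_zero] at h2
  have h3 : (d0 : ℂ) * ∑ χ ∈ Finset.univ.filter (· ∈ B), (χ : G → ℂ) x = 0 := by
    rw [← h2, Finset.mul_sum]
    refine Finset.sum_congr (by ext χ; simp) fun χ hχ => ?_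
    rw [map_mul, Complex.conj_conj, (BlockVal.irr_one_eq_charDegree χ).1,
      hd χ (Set.mem_toFinset.1 hχ), Complex.conj_natCast]
  exact (mul_eq_zero.1 h3).resolve_left
    (Nat.cast_ne_zero.2 (hd χ₀ hχ₀ ▸ (BlockVal.irr_one_eq_charDegree χ₀).2))

/-- With constant degree there is one idempotent class, of value one on the block. -/
theorem exists_unit_value_idem (hM : IsPModular p M) (hB : IsPBlock M B) {d0 : ℕ}
    (hd : ∀ χ ∈ B, charDegree ((χ : IrrCharacter G) : G → ℂ) = d0) :
    ∃ e : MonoidAlgebra (localRing M) G, IsIdempotentElem e ∧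
      (∀ χ : IrrCharacter G, ev (χ : G → ℂ) e = if χ ∈ B then 1 else 0) ∧
      idemF M B ∈ twoSpan (k := ResF M) (toF M e) := by
  haveI : Fact p.Prime := ⟨hM.1⟩
  haveI : CharP (ResF M) p := charP_resF hM
  haveI : IsAlgClosed (ResF M) := Brauer.isAlgClosed_resF hM.2.1
  haveI : FiniteDimensional (ResF M) (MonoidAlgebra (ResF M) G) :=
    Module.Finite.of_basis (MonoidAlgebra.basis G (ResF M))
  obtain ⟨χ₀, hχ₀⟩ := pBlock_nonempty hB
  have hd0 : d0 ≠ 0 := hd χ₀ hχ₀ ▸ (BlockVal.irr_one_eq_charDegree χ₀).2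
  have hirr : ∀ χ : IrrCharacter G, IsCharacter G (χ : G → ℂ) :=
    fun χ => Char.isCharacter_of_irr χ.2
  have hex := ProjVec.exists_system (M := M) hM hB
  obtain ⟨r, D, e, he, hprim, hev, hout, hind, hgen, m, hm0, hm⟩ := hex
  set f : G → ℂ := fun x => ∑ χ ∈ Finset.univ.filter (· ∈ B), (χ : G → ℂ) x with hf
  have hfgen : IsGeneralizedCharacter G f := by
    have := Char.isGeneralizedCharacter_sum (G := G) (Finset.univ.filter (· ∈ B))
      (a := fun χ : IrrCharacter G => (χ : G → ℂ))
      fun χ _ => Char.isGeneralizedCharacter_of_irr χ.2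
    convert this using 1
    funext x; rw [Finset.sum_apply]
  have hn' := ProjVec.exists_int_combination (M := M) hM hB hgen hfgen
    fun x hx => sum_eq_zero_of_singular hM hB hd hx
  obtain ⟨n, hn⟩ := hn'
  have hone : ∀ χ ∈ B, ∑ j, n j * (D j χ : ℤ) = 1 := by
    intro χ hχ
    have h1 : classInner ((χ : IrrCharacter G) : G → ℂ) f = 1 := by
      have hcomb : f = ∑ η ∈ Finset.univ.filter (· ∈ B), (η : G → ℂ) := by
        funext x; rw [Finset.sum_apply]
      rw [hcomb, Char.classInner_sum_right]
      simp only [Char.classInner_irrCharacter, Finset.sum_ite_eq, Finset.mem_filter,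
        Finset.mem_univ, true_and, if_pos hχ]
    rw [hn χ hχ] at h1
    exact_mod_cast h1
  have hmn : ∀ j, (m j : ℤ) = d0 * n j := by
    intro j
    have h0 := hind (fun j => (m j : ℤ) - d0 * n j) fun χ => by
      by_cases hχ : χ ∈ B
      · have h1 := hm χ hχ
        rw [(BlockVal.irr_one_eq_charDegree χ).1, hd χ hχ] at h1
        have h2 : (d0 : ℤ) = ∑ j, (m j : ℤ) * D j χ := by exact_mod_cast h1
        simp only [sub_mul, Finset.sum_sub_distrib, mul_assoc, ← Finset.mul_sum, hone χ hχ]
        rw [← h2, mul_one, sub_self]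
      · simp [hout _ χ hχ]
    exact sub_eq_zero.1 (congrFun h0 j)
  have hnpos : ∀ j, 1 ≤ n j := fun j => by
    have h1 : (0 : ℤ) < d0 * n j := by rw [← hmn]; exact_mod_cast hm0 j
    have h2 : (0 : ℤ) < d0 := by exact_mod_cast Nat.pos_of_ne_zero hd0
    exact (pos_iff_pos_of_mul_pos h1).1 h2
  have hdisj : ∀ i j, i ≠ j → ∀ χ, D i χ = 0 ∨ D j χ = 0 := by
    intro i j hij χ
    by_cases hχ : χ ∈ B
    · by_contra! hcon
      have h1 := Finset.sum_le_sum_of_subset_of_nonneg (f := fun k => n k * (D k χ : ℤ))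
        (Finset.subset_univ {i, j}) fun k _ _ =>
          mul_nonneg (zero_le_one.trans (hnpos k)) (Int.natCast_nonneg _)
      rw [Finset.sum_pair hij, hone χ hχ] at h1
      have h2 : (1 : ℤ) ≤ n i * D i χ :=
        one_le_mul_of_one_le_of_one_le (hnpos i) (by exact_mod_cast Nat.pos_of_ne_zero hcon.1)
      have h3 : (1 : ℤ) ≤ n j * D j χ :=
        one_le_mul_of_one_le_of_one_le (hnpos j) (by exact_mod_cast Nat.pos_of_ne_zero hcon.2)
      linarith
    · exact Or.inl (hout i χ hχ)
  have horth : ∀ i j, i ≠ j → ∀ a : MonoidAlgebra (ResF M) G,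
      toF M (e i) * a * toF M (e j) = 0 := by
    intro i j hij a
    obtain ⟨a', rfl⟩ := ProjVec.toF_surjective (M := M) a
    rw [← map_mul, ← map_mul]
    suffices h0 : e i * a' * e j = 0 by rw [h0, map_zero]
    refine eq_zero_of_ev _ fun χ w => ?_
    rcases hdisj i j hij χ with h | h
    · rw [mul_assoc, mul_assoc]
      exact ev_idem_mul_eq_zero (hirr χ) (he i) (by rw [hev, h, Nat.cast_zero]) _
    · rw [mul_assoc (e i * a'), ProjVec.ev_mul_comm (hirr χ), mul_assoc]
      exact ev_idem_mul_eq_zero (hirr χ) (he j) (by rw [hev, h, Nat.cast_zero]) _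
  set bb := idemF M B with hbb
  have hbi : IsIdempotentElem bb := idemF_mul_self hB
  have hbc : ∀ x, bb * x = x * bb := isCentralElt_commute (idemF_isCentralElt B)
  have hclass : ∀ b, PrimIdem.IsPrim b → bb * b = b →
      ∃ j, PrimIdem.Equivalent b (toF M (e j)) := by
    intro b hb hbB
    obtain ⟨τ, hτs, hτ1, hτ2⟩ := PrimIdem.exists_traceFun (ResF M) hb
    obtain ⟨g, hg, hgE, hgb⟩ := ProjVec.exists_lift_below (M := M) (idemS_mul_self hB) hb.1
      (show PrimIdem.Below b (toF M (idemS M B)) from ⟨hbB, by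
        show b * bb = b
        rw [← hbc, hbB]⟩)
    obtain ⟨c, hc⟩ := hgen g hg hgE.1
    have h0 := ProjVec.map_toF_eq_zero (g - ∑ j, c j • e j) (fun χ => by
      rw [map_sub, map_sum, hc, sub_eq_zero]
      exact Finset.sum_congr rfl fun j _ => by rw [map_nsmul, hev, nsmul_eq_mul]) τ hτs
    by_contra! hcon
    have hz : ∀ j, τ (toF M (e j)) = 0 := fun j => by
      by_contra hne
      exact hcon j (hτ2 _ (hprim j).1 1 (by rwa [one_mul]))
    simp only [map_sub, map_sum, map_nsmul, hgb, hτ1, hz, smul_zero, Finset.sum_const_zero,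
      sub_zero] at h0
    exact one_ne_zero h0
  obtain ⟨c, hc, hcb⟩ : ∃ c : Fin r → MonoidAlgebra (ResF M) G,
      (∀ j, c j ∈ twoSpan (k := ResF M) (toF M (e j))) ∧ ∑ j, c j = bb := by
    refine PrimIdem.induction_prim (ResF M) (P := fun a => bb * a = a →
      ∃ c : Fin r → MonoidAlgebra (ResF M) G,
        (∀ j, c j ∈ twoSpan (k := ResF M) (toF M (e j))) ∧ ∑ j, c j = a) ?_ ?_ ?_ hbi hbi.eq
    · exact fun _ => ⟨0, fun j => Submodule.zero_mem _, by simp⟩
    · intro b hb hbB
      obtain ⟨j, x, y, hx, -, hxy, hyx⟩ := hclass b hb hbB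
      refine ⟨Pi.single j b, fun i => ?_, by simp⟩
      by_cases hij : i = j
      · subst hij
        rw [Pi.single_eq_same]
        refine Submodule.subset_span ⟨(x, y), ?_⟩
        show x * toF M (e i) * y = b
        rw [← hyx, ← mul_assoc, hxy, mul_assoc, hxy, hb.1.eq]
      · rw [Pi.single_eq_of_ne hij]; exact Submodule.zero_mem _
    · intro a b ha hb hba ihb ihab haB
      have hbB : bb * b = b := by rw [← hba.1, ← mul_assoc, haB]
      obtain ⟨c1, h1, h1'⟩ := ihb hbB
      obtain ⟨c2, h2, h2'⟩ := ihab (by rw [mul_sub, haB, hbB])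
      exact ⟨c1 + c2, fun j => Submodule.add_mem _ (h1 j) (h2 j), by
        simp only [Pi.add_apply, Finset.sum_add_distrib, h1', h2']; abel⟩
  have hcc : ∀ i j, i ≠ j → ∀ a, c i * a * c j = 0 := fun i j hij a =>
    mul_eq_zero_of_twoSpan (horth i j hij) (hc i) (hc j) a
  have hcbc : ∀ j, c j * bb = c j * c j := fun j => by
    rw [← hcb, Finset.mul_sum, Finset.sum_eq_single j (fun i _ hi => ?_) (by simp)]
    simpa using hcc j i (Ne.symm hi) 1
  have hej : ∀ j, toF M (e j) * c j = toF M (e j) := fun j => by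
    have h : toF M (e j) * bb = toF M (e j) := by rw [← hbc]; exact (hprim j).2
    rw [← hcb, Finset.mul_sum, Finset.sum_eq_single j (fun i _ hi => ?_) (by simp)] at h
    · exact h
    · simpa using
        mul_eq_zero_of_twoSpan (horth j i (Ne.symm hi)) (mem_twoSpan_self _) (hc i) 1
  have hcent : ∀ j a, c j * a = a * c j := fun j a => by
    have h1 : ∀ i a, c j * a * c i = if i = j then c j * a * c j else 0 := fun i a => by
      split_ifs with h
      · rw [h]
      · exact hcc j i (Ne.symm h) a
    have h2 : ∀ i a, c i * a * c j = if i = j then c j * a * c j else 0 := fun i a => by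
      split_ifs with h
      · rw [h]
      · exact hcc i j h a
    have e1 : c j * a * bb = c j * a * c j := by
      rw [← hcb, Finset.mul_sum]
      rw [Finset.sum_congr rfl fun i _ => h1 i a, Finset.sum_ite_eq', if_pos (Finset.mem_univ _)]
    have e2 : bb * a * c j = c j * a * c j := by
      rw [← hcb, Finset.sum_mul, Finset.sum_mul]
      rw [Finset.sum_congr rfl fun i _ => h2 i a, Finset.sum_ite_eq', if_pos (Finset.mem_univ _)]
    have hbc1 : bb * c j = c j := by
      refine Submodule.span_induction (p := fun x _ => bb * x = x) ?_ ?_ ?_ ?_ (hc j)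
      · rintro _ ⟨q, rfl⟩
        show bb * (q.1 * toF M (e j) * q.2) = q.1 * toF M (e j) * q.2
        rw [← mul_assoc, ← mul_assoc, hbc q.1, mul_assoc q.1 bb, (hprim j).2]
      · exact mul_zero _
      · intro u v _ _ hu hv; rw [mul_add, hu, hv]
      · intro t u _ hu; rw [mul_smul_comm, hu]
    calc c j * a = bb * c j * a := by rw [hbc1]
      _ = c j * a * bb := by rw [mul_assoc, hbc]
      _ = bb * a * c j := e1.trans e2.symm
      _ = a * (bb * c j) := by rw [hbc a, mul_assoc]
      _ = a * c j := by rw [hbc1]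
  have hone' : ∀ i j : Fin r, i = j := by
    intro i j
    by_contra hij
    have hval : ∀ j, c j = bb := by
      intro j
      have hce : IsCentralElt (c j) := isCentralElt_of_commute fun g => hcent j _
      have hjb : bb * c j = c j * c j := by rw [hbc]; exact hcbc j
      have hidem : c j * c j = c j := by
        rw [← hjb]
        refine Submodule.span_induction (p := fun x _ => bb * x = x) ?_ ?_ ?_ ?_ (hc j)
        · rintro _ ⟨q, rfl⟩
          show bb * (q.1 * toF M (e j) * q.2) = q.1 * toF M (e j) * q.2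
          rw [← mul_assoc, ← mul_assoc, hbc q.1, mul_assoc q.1 bb, (hprim j).2]
        · exact mul_zero _
        · intro u v _ _ hu hv; rw [mul_add, hu, hv]
        · intro t u _ hu; rw [mul_smul_comm, hu]
      refine (BlkChar.BlockAlg.eq_zero_or_eq_idemF hB hce hidem
        (by rw [← hbb, hjb, hidem])).resolve_left fun h0 => (hprim j).1.2.1 ?_
      rw [← hej j, h0, mul_zero]
    have h := hcc i j hij 1
    rw [mul_one, hval i, hval j, hbi.eq] at h
    have h' := lam_idemF_of_mem hB hχ₀
    rw [← hbb, h, lam_zero] at h'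
    exact zero_ne_one h'
  have hr : 0 < r := by
    refine Nat.pos_of_ne_zero fun h0 => ?_
    subst h0
    simpa using hone χ₀ hχ₀
  refine ⟨e ⟨0, hr⟩, he _, fun χ => ?_, ?_⟩
  · rw [hev]
    split_ifs with hχ
    · have h1 := hone χ hχ
      rw [Finset.sum_eq_single (⟨0, hr⟩ : Fin r) (fun i _ hi => absurd (hone' i _) hi)
        (by simp)] at h1
      have := Int.eq_one_of_mul_eq_one_left (Int.natCast_nonneg _) h1
      exact_mod_cast this
    · rw [hout _ χ hχ, Nat.cast_zero]
  · rw [← hcb,
      Finset.sum_eq_single (⟨0, hr⟩ : Fin r) (fun i _ hi => absurd (hone' i _) hi) (by simp)]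
    exact hc _

/-- The trace map of a block of constant degree. -/
theorem exists_traceMap (hM : IsPModular p M) (hB : IsPBlock M B) {d0 : ℕ}
    (hd : ∀ χ ∈ B, charDegree ((χ : IrrCharacter G) : G → ℂ) = d0) :
    ∃ Z : MonoidAlgebra (localRing M) G →+ MonoidAlgebra (localRing M) G,
      ∀ (a w : MonoidAlgebra (localRing M) G) (χ : IrrCharacter G),
        ev (χ : G → ℂ) (Z a * w) = if χ ∈ B then ev (χ : G → ℂ) a * ev (χ : G → ℂ) w else 0 := by
  have hex := exists_unit_value_idem (M := M) hM hB hd
  obtain ⟨e, he, hev, hmem⟩ := hex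
  set b := idemS M B with hb
  have hbi : IsIdempotentElem b := idemS_mul_self hB
  have hbc : ∀ x, b * x = x * b := isCentralElt_commute (idemS_isCentralElt B)
  obtain ⟨co, hco⟩ := Finsupp.mem_span_range_iff_exists_finsupp.1 hmem
  choose u hu using fun q : MonoidAlgebra (ResF M) G × MonoidAlgebra (ResF M) G =>
    ProjVec.toF_surjective (M := M) (co q • q.1)
  choose v hv using fun q : MonoidAlgebra (ResF M) G × MonoidAlgebra (ResF M) G =>
    ProjVec.toF_surjective (M := M) q.2
  set s := ∑ q ∈ co.support, u q * e * v q with hs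
  have hsF : toF M s = idemF M B := by
    rw [hs, map_sum, ← hco, Finsupp.sum]
    refine Finset.sum_congr rfl fun q _ => ?_
    simp only [map_mul, hu, hv, smul_mul_assoc]
  have hunit : IsUnit (b * s * b + (1 - b)) := ProjVec.isUnit_of_toF_eq_one (by
    rw [map_add, map_mul, map_mul, hsF, map_sub, map_one, show toF M b = idemF M B from rfl,
      idemF_mul_self hB, idemF_mul_self hB, add_sub_cancel])
  obtain ⟨U, hU⟩ := hunit
  set W := (↑U⁻¹ : MonoidAlgebra (localRing M) G) with hW
  have hdec : b = ∑ q ∈ co.support, W * b * u q * e * (v q * b) := by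
    have h1 : (U : MonoidAlgebra (localRing M) G) * b = b * s * b := by
      rw [hU, add_mul, hbi.one_sub_mul_self, add_zero, mul_assoc _ b b, hbi.eq]
    calc b = W * ((U : MonoidAlgebra (localRing M) G) * b) := by
          rw [hW, Units.inv_mul_cancel_left]
      _ = _ := by
        rw [h1, hs]
        simp only [Finset.mul_sum, Finset.sum_mul, mul_assoc]
  set u' := fun q => W * b * u q with hu'
  set v' := fun q => v q * b with hv'
  let mid : MonoidAlgebra (localRing M) G → MonoidAlgebra (localRing M) G :=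
    fun a => ∑ l ∈ co.support, v' l * a * u' l
  let Z : MonoidAlgebra (localRing M) G →+ MonoidAlgebra (localRing M) G :=
    { toFun := fun a => ∑ q ∈ co.support, u' q * (e * mid a * e) * v' q
      map_zero' := by simp [mid]
      map_add' := fun a a' => by
        simp only [mid, mul_add, add_mul, Finset.sum_add_distrib] }
  refine ⟨Z, fun a w χ => ?_⟩
  have hirr : IsCharacter G (χ : G → ℂ) := Char.isCharacter_of_irr χ.2
  have hcyc : ∀ q, ev (χ : G → ℂ) (u' q * (e * mid a * e) * v' q * w) =
      ev (χ : G → ℂ) (e * mid a * e * (v' q * w * u' q)) := fun q => by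
    rw [mul_assoc (u' q), mul_assoc (u' q), ProjVec.ev_mul_comm hirr]
    simp only [mul_assoc]
  show ev (χ : G → ℂ) ((∑ q ∈ co.support, u' q * (e * mid a * e) * v' q) * w) = _
  rw [Finset.sum_mul, map_sum]
  simp only [hcyc]
  split_ifs with hχ
  · have hsum : ∀ t, ∑ q ∈ co.support, ev (χ : G → ℂ) (e * (v' q * t * u' q)) =
        ev (χ : G → ℂ) t := by
      intro t
      have h2 : ∀ q, ev (χ : G → ℂ) (e * (v' q * t * u' q)) =
          ev (χ : G → ℂ) (u' q * e * v' q * t) := fun q => by
        rw [← mul_assoc, ProjVec.ev_mul_comm hirr]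
        simp only [mul_assoc]
      simp only [h2, ← map_sum, ← Finset.sum_mul]
      rw [show ∑ q ∈ co.support, u' q * e * v' q = b from hdec.symm,
        ProjVec.ev_idemS_mul hB, if_pos hχ]
    simp only [ev_corner hirr he (by rw [hev, if_pos hχ]), ← Finset.mul_sum, hsum]
    congr 1
    simp only [mid, Finset.mul_sum, map_sum, hsum]
  · refine Finset.sum_eq_zero fun q _ => ?_
    rw [mul_assoc, mul_assoc]
    exact ev_idem_mul_eq_zero hirr he (by rw [hev, if_neg hχ]) _

end Cfsg.Agent.BlkDeg
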