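import Cfsg.Agent.BlkDeg.Main
import Cfsg.Agent.BlkDeg.NormalPairs
import Cfsg.Agent.BlockCover.Quotient
import Cfsg.Agent.BlockCount.CentralQuotient
import Cfsg.Agent.CharDeg.Basic
import Cfsg.Agent.S4964

/-!
# Normal defect groups and the quotient by the derived subgroup

A block with normal defect group `D` whose height zero characters have constant degree contains a
block of `G / D'` with abelian defect group and constant degree; that block is nilpotent, so the
inertial quotient acts trivially on `D / D'`, hence on `D`.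
-/

set_option autoImplicit false
set_option linter.style.haveILetI false
set_option linter.unusedSectionVars false
set_option maxHeartbeats 1000000

namespace Cfsg.Agent.BlkDeg

open Cfsg Cfsg.Agent.Block Cfsg.Agent.BrauerPairs
open MonoidAlgebra (single)
open scoped Classical

universe u

variable {p : ℕ} [Fact p.Prime] {M : Ideal AlgInt} [M.IsPrime] [CharP (ResF M) p]
  {G : Type u} [Group G] [Fintype G]

/-- Conjugation commutes with the map to a quotient. -/
theorem cj_quotRing (N : Subgroup G) [N.Normal] (x : G) (a : MonoidAlgebra (ResF M) G) :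
    cj (x : G ⧸ N) (BlockCover.quotRing N a) = BlockCover.quotRing N (cj x a) := by
  induction a using MonoidAlgebra.induction_linear with
  | zero => simp
  | add a b ha hb => simp only [map_add, ha, hb]
  | single g c => simp [BlockCover.quotRing, cj]

/-- The image of the block idempotent of a subgroup is primitive in the centre of the algebra of
the image of the subgroup, if the kernel is a central `p`-subgroup there. -/
theorem mul_image_eq_self (hM : IsPModular p M) (N : Subgroup G) [N.Normal] [Fintype (G ⧸ N)]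
    (hN : IsPGroup p N) (C : Subgroup G) (hcent : N.subgroupOf C ≤ Subgroup.center C)
    (e : Blk M C) {a : MonoidAlgebra (ResF M) (G ⧸ N)}
    (hsupp : SuppIn (C.map (QuotientGroup.mk' N)) a)
    (hfix : Fixed (C.map (QuotientGroup.mk' N)) a) (haa : a * a = a)
    (hne : a * BlockCover.quotRing N ((blockSys M C).idem e) ≠ 0) :
    a * BlockCover.quotRing N ((blockSys M C).idem e) =
      BlockCover.quotRing N ((blockSys M C).idem e) := by
  letI := Fintype.ofFinite C
  set Z := N.subgroupOf C with hZ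
  letI := Fintype.ofFinite (C ⧸ Z)
  have hZp : IsPGroup p Z := hN.of_injective
    ({ toFun := fun x => ⟨((x : C) : G), Subgroup.mem_subgroupOf.1 x.2⟩
       map_one' := rfl
       map_mul' := fun _ _ => rfl } : Z →* N)
    fun x y h => Subtype.ext (Subtype.ext (congrArg Subtype.val h :))
  let j : C ⧸ Z →* G ⧸ N :=
    QuotientGroup.map Z N C.subtype fun x hx => Subgroup.mem_subgroupOf.1 hx
  have hj : Function.Injective j := by
    rw [injective_iff_map_eq_one]
    intro c hc
    obtain ⟨x, rfl⟩ := QuotientGroup.mk_surjective c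
    rw [show j (x : C ⧸ Z) = ((x : G) : G ⧸ N) from rfl, QuotientGroup.eq_one_iff] at hc
    exact (QuotientGroup.eq_one_iff x).2 (Subgroup.mem_subgroupOf.2 hc)
  let J := MonoidAlgebra.mapDomainRingHom (ResF M) j
  have hJc : ∀ (b : MonoidAlgebra (ResF M) (C ⧸ Z)) (c : C ⧸ Z), (J b).coeff (j c) = b.coeff c :=
    fun b c => by
      simp only [J, MonoidAlgebra.mapDomainRingHom_apply, MonoidAlgebra.coeff_mapDomain]
      exact Finsupp.mapDomain_apply hj b.coeff c
  have hJinj : Function.Injective J := fun b b' h =>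
    groupAlgebra_ext fun c => by rw [← hJc, h, hJc]
  have hJq : ∀ b : MonoidAlgebra (ResF M) C,
      J (BlockCover.quotRing Z b) = BlockCover.quotRing N (incl C b) := by
    intro b
    induction b using MonoidAlgebra.induction_linear with
    | zero => simp
    | add b b' hb hb' => simp only [map_add, hb, hb']
    | single g c => simp [J, BlockCover.quotRing, incl, j]; rfl
  set a₀ : MonoidAlgebra (ResF M) (C ⧸ Z) := ofFn fun c => a.coeff (j c) with ha₀
  have hJa : J a₀ = a := by
    refine groupAlgebra_ext fun g => ?_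
    by_cases hg : g ∈ Set.range j
    · obtain ⟨c, rfl⟩ := hg
      rw [hJc, ha₀, coeff_ofFn]
    · rw [hsupp g fun h => hg ?_]
      · simp only [J, MonoidAlgebra.mapDomainRingHom_apply, MonoidAlgebra.coeff_mapDomain]
        exact Finsupp.mapDomain_of_notMem_range a₀.coeff g hg
      · obtain ⟨x, hx, rfl⟩ := h
        exact ⟨((⟨x, hx⟩ : C) : C ⧸ Z), rfl⟩
  have hac : IsCentralElt a₀ := by
    intro c d
    simp only [ha₀, coeff_ofFn]
    rw [map_mul j, map_mul j, map_inv j]
    obtain ⟨x, rfl⟩ := QuotientGroup.mk_surjective d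
    exact hfix _ ⟨(x : G), x.2, rfl⟩ _
  have haa₀ : a₀ * a₀ = a₀ := hJinj (by rw [map_mul, hJa, haa])
  set Q := BlockCount.quotBlock Z e.1 with hQ
  have hQb : IsPBlock M Q := BlockCount.isPBlock_quotBlock hM hcent hZp e.2
  have heC : IsCentralElt (idemF M e.1) := idemF_isCentralElt e.1
  set x := BlockCover.quotRing Z (idemF M e.1) with hx
  have hxc : IsCentralElt x := BlockCover.isCentralElt_quotRing Z heC
  have hxx : x * x = x := by rw [hx, ← map_mul, idemF_mul_self e.2]
  have hinfl : ∀ φ : IrrCharacter (C ⧸ Z),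
      (Char.irrEquivQuotient Z φ : IrrCharacter C) = (⟨(φ : C ⧸ Z → ℂ) ∘ QuotientGroup.mk,
        Char.isIrrCharacter_comp φ.2 (QuotientGroup.mk' Z) (QuotientGroup.mk'_surjective Z)⟩ :
          IrrCharacter C) := fun φ => Subtype.ext rfl
  have hxQ : idemF M Q = x := by
    have hsum := (blockSysTop M).eq_sum_idem (centralIn_top_of_isCentralElt hxc) hxx
    rw [Finset.sum_eq_single (⟨Q, hQb⟩ : Blk M (C ⧸ Z))] at hsum
    · exact hsum.symm
    · intro i hi hiQ
      exfalso
      have h1 : lam M ((blkChar M i : IrrCharacter (C ⧸ Z)) : C ⧸ Z → ℂ) x = 1 :=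
        (Finset.mem_filter.1 hi).2
      rw [hx, BlockCover.lam_quotRing Z _ heC] at h1
      refine notMem_of_ne M hiQ ?_
      show (Char.irrEquivQuotient Z (blkChar M i) : IrrCharacter C) ∈ e.1
      rw [hinfl]
      by_contra hn
      exact zero_ne_one ((lam_idemF_of_notMem e.2 (χ := ⟨_, Char.isIrrCharacter_comp
        (blkChar M i).2 (QuotientGroup.mk' Z) (QuotientGroup.mk'_surjective Z)⟩) hn).symm.trans h1)
    · intro hn
      exfalso
      refine hn (Finset.mem_filter.2 ⟨Finset.mem_univ _, ?_⟩)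
      show lam M ((blkChar M (⟨Q, hQb⟩ : Blk M (C ⧸ Z)) : IrrCharacter (C ⧸ Z)) : C ⧸ Z → ℂ) x = 1
      rw [hx, BlockCover.lam_quotRing Z _ heC]
      have hmem : (Char.irrEquivQuotient Z (blkChar M (⟨Q, hQb⟩ : Blk M (C ⧸ Z))) : IrrCharacter C)
          ∈ e.1 := blkChar_mem M (⟨Q, hQb⟩ : Blk M (C ⧸ Z))
      rw [hinfl] at hmem
      exact lam_idemF_of_mem e.2 (χ := ⟨_, Char.isIrrCharacter_comp
        (blkChar M (⟨Q, hQb⟩ : Blk M (C ⧸ Z))).2 (QuotientGroup.mk' Z)
        (QuotientGroup.mk'_surjective Z)⟩) hmem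
  have himg : BlockCover.quotRing N ((blockSys M C).idem e) = J x := (hJq _).symm
  rw [himg, ← hJa, ← map_mul] at hne ⊢
  have hmul : idemF M Q * (a₀ * x) = a₀ * x := by
    rw [hxQ, ← mul_assoc, ← isCentralElt_commute hac, mul_assoc, hxx]
  rcases BlkChar.BlockAlg.eq_zero_or_eq_idemF hQb
    (isCentralElt_of_commute fun g => by
      rw [mul_assoc, isCentralElt_commute hxc, ← mul_assoc, isCentralElt_commute hac, mul_assoc])
    (by
      rw [mul_assoc, ← mul_assoc x, ← isCentralElt_commute hac, mul_assoc a₀ x, hxx, ← mul_assoc,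
        haa₀]) hmul with h | h
  · rw [h, map_zero] at hne
    exact absurd rfl hne
  · rw [h, hxQ]

variable {D : Subgroup G} [D.Normal] {B : Set (IrrCharacter G)}

/-- A block with normal defect group and constant height zero degree is nilpotent. -/
theorem isNilpotentBlock_of_normal_defect (hM : IsPModular p M) (hB : IsPBlock M B)
    (hD : IsDefectGroup p M B D) {d : ℕ}
    (hd : ∀ χ : IrrCharacter G, χ ∈ B → blockHeight p B (χ : G → ℂ) = 0 →
      charDegree (χ : G → ℂ) = d) :
    IsNilpotentBlock p M B := by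
  have hp := hM.1
  set π := QuotientGroup.mk' ⁅D, D⁆ with hπ
  letI := Fintype.ofFinite (G ⧸ ⁅D, D⁆)
  obtain ⟨e₀, he₀⟩ := exists_maxPair_of_isDef (S := pairSys M G)
    (isDef_of_isDefectGroup (B := (⟨B, hB⟩ : Blk M G)) hD)
  have hP : IsPGroup p D := he₀.1.1
  have hNp : IsPGroup p (⁅D, D⁆ : Subgroup G) := hP.to_le (Subgroup.commutator_le_self D)
  have hexB := BlockCover.exists_block_map_defectGroup ⁅D, D⁆ hM hNp hB
  obtain ⟨Bb, hBb, hsub, hdef⟩ := hexB
  set Db := D.map π with hDb'
  have hDb : IsDefectGroup p M Bb Db := (hdef _).2 ⟨D, hD, rfl⟩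
  haveI : Db.Normal := Subgroup.Normal.map ‹_› _ (QuotientGroup.mk'_surjective _)
  have hab : ∀ x ∈ Db, ∀ y ∈ Db, x * y = y * x := by
    rintro _ ⟨x, hx, rfl⟩ _ ⟨y, hy, rfl⟩
    rw [← map_mul, ← map_mul]
    refine QuotientGroup.eq.2 ?_
    have h := Subgroup.commutator_mem_commutator (inv_mem hy) (inv_mem hx)
    rw [commutatorElement_def] at h
    simpa [mul_assoc] using h
  -- degrees
  have hidx : Db.index = D.index := by
    rw [hDb']
    refine Subgroup.index_map_eq _ (QuotientGroup.mk'_surjective _) ?_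
    rw [hπ, QuotientGroup.ker_mk']
    exact Subgroup.commutator_le_self D
  have hmin : ∀ {H : Type u} [Group H] [Fintype H] {A : Set (IrrCharacter H)} {E : Subgroup H},
      IsPBlock M A → IsDefectGroup p M A E → ∀ χ ∈ A,
        E.index.factorization p ≤
          sInf ((fun η : IrrCharacter H => (charDegree (η : H → ℂ)).factorization p) '' A) ∧
        sInf ((fun η : IrrCharacter H => (charDegree (η : H → ℂ)).factorization p) '' A) ≤
          (charDegree ((χ : IrrCharacter H) : H → ℂ)).factorization p := by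
    intro H _ _ A E hA hE χ hχ
    have hle := Nat.sInf_le (s := (fun η : IrrCharacter H =>
      (charDegree (η : H → ℂ)).factorization p) '' A) ⟨χ, hχ, rfl⟩
    refine ⟨?_, hle⟩
    have hc := card_isDefectGroup hM hA hE
    rw [blockDefect] at hc
    have h1 := BlockVal.factorization_degree_le p χ
    have h2 : (Nat.card E).factorization p + E.index.factorization p =
        (Nat.card H).factorization p := by
      rw [← Finsupp.add_apply, ← Nat.factorization_mul Nat.card_pos.ne'
        Subgroup.index_ne_zero_of_finite, Subgroup.card_mul_index]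
    rw [hc, hp.factorization_pow, Finsupp.single_eq_same] at h2
    omega
  have hdegQ : ∀ χ : IrrCharacter (G ⧸ ⁅D, D⁆), χ ∈ Bb →
      (charDegree (χ : G ⧸ ⁅D, D⁆ → ℂ)).factorization p ≤ D.index.factorization p := fun χ _ => by
    rw [← hidx]
    exact (Nat.factorization_le_iff_dvd (BlockVal.irr_one_eq_charDegree χ).2
      Subgroup.index_ne_zero_of_finite).2 (CharDeg.charDegree_dvd_index Db hab χ) p
  have h0b : ∀ χ : IrrCharacter (G ⧸ ⁅D, D⁆), χ ∈ Bb →
      blockHeight p Bb (χ : G ⧸ ⁅D, D⁆ → ℂ) = 0 := by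
    intro χ hχ
    have h1 := hmin hBb hDb χ hχ
    have h2 := hdegQ χ hχ
    rw [hidx] at h1
    rw [blockHeight]
    omega
  have hdb : ∀ χ ∈ Bb, charDegree ((χ : IrrCharacter (G ⧸ ⁅D, D⁆)) : G ⧸ ⁅D, D⁆ → ℂ) = d := by
    intro χ hχ
    set ψ : IrrCharacter G := ⟨(χ : G ⧸ ⁅D, D⁆ → ℂ) ∘ QuotientGroup.mk,
      Char.isIrrCharacter_comp χ.2 π (QuotientGroup.mk'_surjective _)⟩ with hψ
    have hψB : ψ ∈ B := hsub χ hχ ψ rfl
    have hdeq : charDegree (ψ : G → ℂ) = charDegree (χ : G ⧸ ⁅D, D⁆ → ℂ) := by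
      simp only [charDegree, hψ, Function.comp_apply, QuotientGroup.mk_one]
    have hh : blockHeight p B (ψ : G → ℂ) = 0 := by
      have h1 := hmin hB hD ψ hψB
      have h2 := hdegQ χ hχ
      rw [hdeq] at h1
      rw [blockHeight, hdeq]
      omega
    rw [← hdeq]
    exact hd ψ hψB hh
  have hnilb : IsNilpotentBlock p M Bb :=
    isNilpotentBlock_of_equal_degrees hM hBb hdb hDb hab h0b
  obtain ⟨f, hf⟩ := exists_maxPair_of_isDef (S := pairSys M (G ⧸ ⁅D, D⁆))
    (isDef_of_isDefectGroup (B := (⟨Bb, hBb⟩ : Blk M (G ⧸ ⁅D, D⁆))) hDb)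
  have hmb : IsMaximalBrauerPair p M Bb Db f.1 :=
    (isMaximalBrauerPair_iff (⟨Bb, hBb⟩ : Blk M (G ⧸ ⁅D, D⁆)) ⟨Db, f⟩).2 hf
  have hstabb := (isNilpotentBlock_iff_abelian hmb hab).1 hnilb
  have hDbp : IsPGroup p Db := hP.map _
  set fb := (pairSys M (G ⧸ ⁅D, D⁆) Db).idem f with hfb
  have hfc := (pairSys M (G ⧸ ⁅D, D⁆) Db).central_idem f
  -- the idempotent of a block is supported on the centralizer of a normal subgroup
  have htrunc : ∀ {H : Type u} [Group H] [Fintype H] {A : Set (IrrCharacter H)} {E : Subgroup H}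
      [E.Normal], IsPBlock M A → IsPGroup p E →
        BrauerPairs.trunc E (idemF M A) = idemF M A := by
    intro H _ _ A E _ hA hEp
    refine trunc_eq_self_iff.2 fun g hg => ?_
    rw [coeff_idemF hA, S4964.blockCoeff_eq_zero hM hEp hA (fun h => hg h.2), redC_zero]
  have hfle : BlockCover.quotRing ⁅D, D⁆ (idemF M B) * fb = fb := by
    have hc := BlockCover.isCentralElt_quotRing ⁅D, D⁆ (idemF_isCentralElt (M := M) B)
    have hfe : idemF M Bb * BlockCover.quotRing ⁅D, D⁆ (idemF M B) = idemF M Bb :=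
      BlockCover.idemF_mul_eq_self hBb hc (by rw [← map_mul, idemF_mul_self hB]) fun χ hχ => by
        rw [BlockCover.lam_quotRing ⁅D, D⁆ χ (idemF_isCentralElt B)]
        exact lam_idemF_of_mem hB (χ := ⟨_, Char.isIrrCharacter_comp χ.2 π
          (QuotientGroup.mk'_surjective _)⟩) (hsub χ hχ _ rfl)
    have hbf : idemF M Bb * fb = fb := by
      have h := hf.1.mul_idem
      rw [show (blockSysTop M).idem (⟨Bb, hBb⟩ : Blk M (G ⧸ ⁅D, D⁆)) = idemF M Bb from rfl] at h
      rwa [htrunc hBb hDbp] at h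
    rw [← hbf, ← mul_assoc, ← isCentralElt_commute (idemF_isCentralElt Bb), hfe]
  have htop := centralIn_top_of_isCentralElt (idemF_isCentralElt (M := M) B)
  have hsplit := (pairSys M G D).eq_sum_idem (centralIn_trunc_of_top htop D)
    (by rw [← trunc_mul hP (htop.fixed.mono le_top) (htop.fixed.mono le_top), idemF_mul_self hB])
  rw [htrunc hB hP] at hsplit
  have hfne : fb ≠ 0 := (pairSys M (G ⧸ ⁅D, D⁆) Db).idem_ne_zero f
  rw [← hfle, hsplit, map_sum, Finset.sum_mul] at hfne
  obtain ⟨i, hi, hine⟩ := Finset.exists_ne_zero_of_sum_ne_zero hfne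
  have hi2 := (Finset.mem_filter.1 hi).2
  have htopB : (blockSysTop M).idem (⟨B, hB⟩ : Blk M G) = idemF M B := rfl
  have hpair : PairOf (blockSysTop M) (pairSys M G) p (⟨B, hB⟩ : Blk M G) ⟨D, i⟩ := by
    refine ⟨hP, ?_⟩
    rw [htopB, htrunc hB hP]
    exact hi2
  have hmax := maxPair_of_isDef hpair (isDef_of_isDefectGroup (B := (⟨B, hB⟩ : Blk M G)) hD)
  refine isNilpotentBlock_of_normal hmax fun z hz hreg => ?_
  set img := BlockCover.quotRing ⁅D, D⁆ ((pairSys M G D).idem i) with himg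
  have hCmap : (Subgroup.centralizer (D : Set G)).map π ≤
      Subgroup.centralizer (Db : Set (G ⧸ ⁅D, D⁆)) := by
    rintro _ ⟨c, hc, rfl⟩
    rw [Subgroup.mem_centralizer_iff]
    rintro _ ⟨x, hx, rfl⟩
    rw [← map_mul, ← map_mul, Subgroup.mem_centralizer_iff.1 hc x hx]
  have hisupp : SuppIn ((Subgroup.centralizer (D : Set G)).map π) img := by
    intro c hc
    rw [himg, BlockCover.coeff_quotRing]
    refine Finset.sum_eq_zero fun x hx => ((pairSys M G D).central_idem i).supp x fun hxC => hc ?_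
    exact ⟨x, hxC, (Finset.mem_filter.1 hx).2⟩
  have hcomm : Commute fb img := CentralIn.commute hfc.fixed (hisupp.mono hCmap)
  have hine' : fb * img ≠ 0 := by rwa [hcomm.eq]
  have hfsupp : SuppIn ((Subgroup.centralizer (D : Set G)).map π) fb := by
    intro c hc
    by_contra hne
    apply hc
    have hcC : c ∈ Subgroup.centralizer (Db : Set (G ⧸ ⁅D, D⁆)) :=
      not_not.1 fun h => hne (hfc.supp c h)
    have hcreg : ¬ p ∣ orderOf c := fun h => hne (coeff_idem_eq_zero hM f h)
    obtain ⟨y, hy, hyp⟩ := Element.exists_pPrimeElement_preimage hp π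
      (QuotientGroup.mk'_surjective _) ((S4964.not_dvd_iff_coprime hp).1 hcreg)
    refine ⟨y, S4964.mem_centralizer_of_mk hP hyp ?_, hy⟩
    rw [← QuotientGroup.mk'_apply, ← hπ, hy]
    exact hcC
  have hff : fb * fb = fb := (pairSys M (G ⧸ ⁅D, D⁆) Db).idem_mul_self f
  have hprim : fb * img = img := mul_image_eq_self hM ⁅D, D⁆ hNp (Subgroup.centralizer (D : Set G))
    (fun x hx => Subgroup.mem_center_iff.2 fun y => Subtype.ext
      (Subgroup.mem_centralizer_iff.1 y.2 _
        (Subgroup.commutator_le_self D (Subgroup.mem_subgroupOf.1 hx))).symm)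
    i hfsupp (hfc.fixed.mono hCmap) hff hine'
  have hzN : (z : G ⧸ ⁅D, D⁆) ∈ Subgroup.normalizer (Db : Set (G ⧸ ⁅D, D⁆)) := by
    rw [Subgroup.normalizer_eq_top_iff.2 ‹Db.Normal›]; trivial
  have hexj := (pairSys M (G ⧸ ⁅D, D⁆) Db).exists_idem_eq_cj (pairSys M (G ⧸ ⁅D, D⁆) Db)
    (z : G ⧸ ⁅D, D⁆) (by rw [← centralizer_map_conj, map_conj_of_mem_normalizer hzN]) f
  obtain ⟨f', hf', -⟩ := hexj
  have hf'i : (pairSys M (G ⧸ ⁅D, D⁆) Db).idem f' * img = img := by
    rw [hf']
    conv_rhs => rw [himg, ← show cj z ((pairSys M G D).idem i) = (pairSys M G D).idem i from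
      (mem_stab.1 hz).2, ← cj_quotRing, ← himg, ← hprim, map_mul]
    conv_lhs => rw [himg, ← show cj z ((pairSys M G D).idem i) = (pairSys M G D).idem i from
      (mem_stab.1 hz).2, ← cj_quotRing, ← himg]
  have hff' : f' = f := by
    by_contra hne
    apply hine'
    rw [hprim, ← hf'i, ← hprim, ← mul_assoc, hfb,
      (pairSys M (G ⧸ ⁅D, D⁆) Db).idem_mul_ne f' f hne, zero_mul]
  rw [hff'] at hf'
  have hzc := hstabb (show (z : G ⧸ ⁅D, D⁆) ∈ stab (⟨Db, f⟩ : PairIdx M (G ⧸ ⁅D, D⁆)) from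
    mem_stab.2 ⟨hzN, hf'.symm⟩)
  exact S4964.mem_centralizer_of_mk hP ((S4964.not_dvd_iff_coprime hp).1 hreg) hzc

/-- A nilpotent block has constant height zero degree. -/
theorem exists_heightZero_degree_of_nilpotent (hM : IsPModular p M) (hnil : IsNilpotentBlock p M B)
    {P : Subgroup G} (hP : IsDefectGroup p M B P) :
    ∃ d : ℕ, ∀ χ : IrrCharacter G, χ ∈ B → blockHeight p B (χ : G → ℂ) = 0 →
      charDegree (χ : G → ℂ) = d := by
  have hex := Nil.exists_nilData hM ⟨B, hnil.1⟩ hnil hP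
  obtain ⟨N, hNB, hNP⟩ := hex
  obtain rfl : N.B.1 = B := by rw [hNB]
  obtain ⟨χ, hχ, hh⟩ := BlockVal.exists_height_zero (p := p) (pBlock_nonempty N.B.2)
  obtain ⟨Φ, hΦ⟩ := N.exists_equiv hχ hh
  refine ⟨charDegree (χ : G → ℂ), fun ψ hψ hψ0 => ?_⟩
  have h := hΦ ⟨ψ, hψ⟩ 1 (by simpa using (Fact.out : p.Prime).one_lt.ne')
  rw [(BlockVal.irr_one_eq_charDegree ψ).1, (BlockVal.irr_one_eq_charDegree χ).1, ← Nat.cast_mul,
    Nat.cast_inj] at h
  have hne := (BlockVal.irr_one_eq_charDegree (Φ ⟨ψ, hψ⟩)).2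
  obtain ⟨n, hn⟩ := IsPGroup.iff_card.1 N.isPGroup
  have hdvd := BlockVal.charDegree_dvd_card (Φ ⟨ψ, hψ⟩)
  rw [hn] at hdvd
  obtain ⟨i, -, hi⟩ := (Nat.dvd_prime_pow (Fact.out : p.Prime)).1 hdvd
  have h1 := (BlockVal.blockHeight_eq_zero_iff hψ).1 hψ0 χ hχ
  rw [h, Nat.factorization_mul hne (BlockVal.irr_one_eq_charDegree χ).2, Finsupp.add_apply, hi,
    (Fact.out : p.Prime).factorization_pow, Finsupp.single_eq_same] at h1
  have hi0 : i = 0 := by omega
  rw [h, hi, hi0, pow_zero, one_mul]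

end Cfsg.Agent.BlkDeg
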